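import Mathlib

/-!
Binary affine groups, part 0: the key consequence `KL` of binarity for a linear group, and the
basic theory of its "reflections" (non-trivial elements with a maximal fixed space).
-/

set_option autoImplicit false
set_option linter.unusedSectionVars false
set_option linter.unusedVariables false
set_option linter.unusedSimpArgs false
set_option linter.style.haveILetI false

namespace Cfsg.Agent.H98.Bin

section Card

variable {V : Type*} [AddCommGroup V] [Finite V]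

theorem card_inf_mul_relIndex (A K : AddSubgroup V) :
    Nat.card ↥(A ⊓ K) * A.relIndex K = Nat.card K := by
  rw [← AddSubgroup.relIndex_bot_left, ← AddSubgroup.relIndex_bot_left,
    ← AddSubgroup.inf_relIndex_right A K]
  exact AddSubgroup.relIndex_mul_relIndex ⊥ (A ⊓ K) K bot_le inf_le_right

theorem card_sup_mul_inf (A B : AddSubgroup V) :
    Nat.card ↥(A ⊔ B) * Nat.card ↥(A ⊓ B) = Nat.card A * Nat.card B := by
  have h1 := card_inf_mul_relIndex A (A ⊔ B)
  have h2 := card_inf_mul_relIndex A B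
  rw [inf_eq_left.2 le_sup_left, AddSubgroup.relIndex_sup_left] at h1
  rw [← h1, ← h2]; ring

theorem card_sup_disj {A B : AddSubgroup V} (h : A ⊓ B = ⊥) :
    Nat.card ↥(A ⊔ B) = Nat.card A * Nat.card B := by
  have := card_sup_mul_inf A B
  rwa [h, AddSubgroup.card_bot, mul_one] at this

theorem card_mul_le {A B Y : AddSubgroup V} (hA : A ≤ Y) (hB : B ≤ Y) :
    Nat.card A * Nat.card B ≤ Nat.card Y * Nat.card ↥(A ⊓ B) := by
  rw [← card_sup_mul_inf]
  exact Nat.mul_le_mul_right _ (AddSubgroup.card_le_of_le (sup_le hA hB))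

theorem exists_mem_inf {A B Y : AddSubgroup V} (hA : A ≤ Y) (hB : B ≤ Y)
    (h : Nat.card Y < Nat.card A * Nat.card B) : ∃ v, v ≠ 0 ∧ v ∈ A ∧ v ∈ B := by
  by_contra hc
  have hb : A ⊓ B = ⊥ := by
    rw [eq_bot_iff]
    intro v hv
    by_contra h0
    exact hc ⟨v, h0, hv.1, hv.2⟩
  have := card_mul_le hA hB
  rw [hb, AddSubgroup.card_bot, mul_one] at this
  omega

theorem inf_eq_bot_iff' {A B : AddSubgroup V} : A ⊓ B = ⊥ ↔ ∀ v, v ∈ A → v ∈ B → v = 0 := by
  rw [eq_bot_iff]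
  exact ⟨fun h v ha hb => h ⟨ha, hb⟩, fun h v hv => h v hv.1 hv.2⟩

theorem card_top' : Nat.card (⊤ : AddSubgroup V) = Nat.card V := AddSubgroup.card_top

end Card

section Defs

variable {H : Type*} (V : Type*) [Group H] [AddCommGroup V] [DistribMulAction H V]

/-- `v ↦ g • v - v`. -/
def tau (g : H) : V →+ V where
  toFun v := g • v - v
  map_zero' := by simp
  map_add' a b := by rw [smul_add]; abel

/-- The fixed space. -/
def Wf (g : H) : AddSubgroup V := (tau V g).ker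

/-- The commutator space. -/
def Lf (g : H) : AddSubgroup V := (tau V g).range

/-- `h` moves by `d` every vector that some element moves by `d`. -/
def IsHd (h : H) (d : V) : Prop := ∀ (u : V) (g : H), g • u = u + d → h • u = u + d

/-- A reflection: a non-trivial element with a maximal fixed space. -/
def IsRefl (t : H) : Prop := t ≠ 1 ∧ ∀ g : H, g ≠ 1 → Wf V t ≤ Wf V g → Wf V g ≤ Wf V t

variable (H) in
/-- The key consequence of binarity. -/
def KL : Prop := ∀ d : V, ∃ h : H, IsHd V h d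

/-- Exponent two. -/
def Two : Prop := ∀ v : V, v + v = 0

/-- No two-torsion. -/
def NTwo : Prop := ∀ v : V, v + v = 0 → v = 0

end Defs

section Basic

variable {H V : Type*} [Group H] [AddCommGroup V] [DistribMulAction H V]

theorem tau_apply (g : H) (v : V) : tau V g v = g • v - v := rfl

theorem mem_W {g : H} {v : V} : v ∈ Wf V g ↔ g • v = v := by
  simp [Wf, tau_apply, sub_eq_zero]

theorem mem_L {g : H} {d : V} : d ∈ Lf V g ↔ ∃ v : V, g • v = v + d := by
  simp only [Lf, AddMonoidHom.mem_range, tau_apply]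
  exact exists_congr fun v => by rw [sub_eq_iff_eq_add']

theorem sub_mem_L (g : H) (v : V) : g • v - v ∈ Lf V g := mem_L.2 ⟨v, by abel⟩

theorem card_L_mul_W (g : H) : Nat.card (Lf V g) * Nat.card (Wf V g) = Nat.card V := by
  rw [Lf, Wf, ← AddSubgroup.index_ker, AddSubgroup.index_mul_card]

theorem smul_mem_L (g : H) {t : H} {d : V} (hd : d ∈ Lf V t) : g • d ∈ Lf V (g * t * g⁻¹) := by
  obtain ⟨v, hv⟩ := mem_L.1 hd
  exact mem_L.2 ⟨g • v, by rw [mul_smul, mul_smul, inv_smul_smul, hv, smul_add]⟩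

theorem smul_mem_W (g : H) {t : H} {d : V} (hd : d ∈ Wf V t) : g • d ∈ Wf V (g * t * g⁻¹) := by
  rw [mem_W] at hd ⊢
  rw [mul_smul, mul_smul, inv_smul_smul, hd]

theorem mem_W_conj {g t : H} {d : V} : d ∈ Wf V (g * t * g⁻¹) ↔ g⁻¹ • d ∈ Wf V t := by
  constructor
  · intro h
    have := smul_mem_W g⁻¹ h
    simpa [mul_assoc] using this
  · intro h
    simpa using smul_mem_W g h

theorem mem_L_conj {g t : H} {d : V} : d ∈ Lf V (g * t * g⁻¹) ↔ g⁻¹ • d ∈ Lf V t := by
  constructor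
  · intro h
    have := smul_mem_L g⁻¹ h
    simpa [mul_assoc] using this
  · intro h
    simpa using smul_mem_L g h

theorem card_L_conj (g t : H) : Nat.card (Lf V (g * t * g⁻¹)) = Nat.card (Lf V t) := by
  refine Nat.card_congr
    { toFun := fun d => ⟨g⁻¹ • d.1, mem_L_conj.1 d.2⟩
      invFun := fun d => ⟨g • d.1, smul_mem_L g d.2⟩
      left_inv := fun d => by simp
      right_inv := fun d => by simp }

theorem IsRefl.conj {t : H} (ht : IsRefl V t) (g : H) : IsRefl V (g * t * g⁻¹) := by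
  refine ⟨fun h => ht.1 (by simpa [mul_inv_eq_one] using h), fun x hx hle v hv => ?_⟩
  have h1 : g⁻¹ * x * g⁻¹⁻¹ ≠ 1 := fun h => hx (by
    have e : x = g * (g⁻¹ * x * g⁻¹⁻¹) * g⁻¹ := by group
    rw [e, h]; simp)
  have h2 : Wf V t ≤ Wf V (g⁻¹ * x * g⁻¹⁻¹) := fun w hw =>
    mem_W_conj.2 (by rw [inv_inv]; exact hle (smul_mem_W g hw))
  exact mem_W_conj.2 (ht.2 _ h1 h2 (smul_mem_W g⁻¹ hv))

theorem smul_ne_zero' (g : H) {d : V} (h0 : d ≠ 0) : g • d ≠ 0 := fun h =>
  h0 (by rw [← inv_smul_smul g d, h, smul_zero])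

theorem W_inv (g : H) : Wf V g⁻¹ = Wf V g := by
  ext v; rw [mem_W, mem_W, inv_smul_eq_iff, eq_comm]

theorem L_inv (g : H) : Lf V g⁻¹ = Lf V g := by
  have key : ∀ g : H, Lf V g⁻¹ ≤ Lf V g := fun g d hd => by
    obtain ⟨v, hv⟩ := mem_L.1 hd
    refine mem_L.2 ⟨-(g⁻¹ • v), ?_⟩
    rw [smul_neg, smul_inv_smul, hv]; abel
  exact le_antisymm (key g) (by simpa using key g⁻¹)

theorem inf_le_W_mul (a b : H) : Wf V a ⊓ Wf V b ≤ Wf V (a * b) := fun v hv => by
  rw [mem_W, mul_smul, mem_W.1 hv.2, mem_W.1 hv.1]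

theorem IsHd.swap {h g : H} {d u : V} (hh : IsHd V h d) (hg : g • u = u + d) :
    h • (u + d) = u := by
  have h1 : g⁻¹ • (-(u + d)) = -(u + d) + d := by
    rw [← hg, smul_neg, inv_smul_smul, hg]; abel
  have h2 := hh _ _ h1
  rw [smul_neg] at h2
  have : h • (u + d) = -(-(u + d) + d) := by rw [← h2, neg_neg]
  rw [this]; abel

theorem IsHd.sub_mem {h g g' : H} {d u u' : V} (hh : IsHd V h d) (hg : g • u = u + d)
    (hg' : g' • u' = u' + d) : u' - u ∈ Wf V h := by
  rw [mem_W, smul_sub, hh _ _ hg, hh _ _ hg']; abel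

theorem IsHd.W_le {h g : H} {d u : V} (hh : IsHd V h d) (hg : g • u = u + d) :
    Wf V g ≤ Wf V h := fun w hw => by
  have h1 : g • (u + w) = u + w + d := by rw [smul_add, hg, mem_W.1 hw]; abel
  simpa using hh.sub_mem hg h1

theorem IsHd.neg {h g : H} {d u : V} (hh : IsHd V h d) (hg : g • u = u + d) : h • d = -d := by
  have h1 := hh.swap hg
  rw [smul_add, hh _ _ hg] at h1
  rw [add_assoc, add_eq_left] at h1
  exact eq_neg_of_add_eq_zero_right h1

/-- A vector moved by a fixed vector: characteristic two. -/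
theorem KL.unip (hK : KL H V) {g : H} {u x : V} (hg : g • u = u + x) (hx : g • x = x) :
    x + x = 0 := by
  obtain ⟨h, hh⟩ := hK x
  have h1 : g • (u + x) = u + x + x := by rw [smul_add, hg, hx]
  have h2 := hh _ _ h1
  rw [hh.swap hg, add_assoc, left_eq_add] at h2
  exact h2

theorem IsRefl.eq_of {t g : H} (ht : IsRefl V t) (hle : Wf V t ≤ Wf V g) {u : V}
    (hu : u ∉ Wf V t) (e : g • u = t • u) : g = t := by
  by_contra hne
  have h1 : t⁻¹ * g ≠ 1 := fun h => hne (by rw [inv_mul_eq_one] at h; exact h.symm)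
  have h2 : Wf V t ≤ Wf V (t⁻¹ * g) := fun w hw =>
    inf_le_W_mul _ _ ⟨by rw [W_inv]; exact hw, hle hw⟩
  exact hu (ht.2 _ h1 h2 (by rw [mem_W, mul_smul, e, inv_smul_smul]))

theorem not_mem_W {g : H} {u d : V} (h : g • u = u + d) (h0 : d ≠ 0) : u ∉ Wf V g := fun hw => by
  rw [mem_W, h, add_eq_left] at hw; exact h0 hw

theorem IsRefl.isHd (hK : KL H V) {t : H} (ht : IsRefl V t) {d : V} (hd : d ∈ Lf V t)
    (h0 : d ≠ 0) : IsHd V t d := by
  obtain ⟨u, hu⟩ := mem_L.1 hd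
  obtain ⟨h, hh⟩ := hK d
  have := ht.eq_of (hh.W_le hu) (not_mem_W hu h0) (by rw [hh _ _ hu, hu])
  rwa [this] at hh

theorem IsRefl.neg (hK : KL H V) {t : H} (ht : IsRefl V t) {d : V} (hd : d ∈ Lf V t) :
    t • d = -d := by
  by_cases h0 : d = 0
  · simp [h0]
  obtain ⟨u, hu⟩ := mem_L.1 hd
  exact (ht.isHd hK hd h0).neg hu

theorem IsRefl.eq_of_mem_L (hK : KL H V) {t t' : H} (ht : IsRefl V t) (ht' : IsRefl V t') {d : V}
    (hd : d ∈ Lf V t) (hd' : d ∈ Lf V t') (h0 : d ≠ 0) : t = t' := by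
  obtain ⟨u, hu⟩ := mem_L.1 hd
  have hh := ht'.isHd hK hd' h0
  exact (ht.eq_of (hh.W_le hu) (not_mem_W hu h0) (by rw [hh _ _ hu, hu])).symm

theorem IsRefl.L_inf_L (hK : KL H V) {t t' : H} (ht : IsRefl V t) (ht' : IsRefl V t')
    (hne : t ≠ t') {d : V} (hd : d ∈ Lf V t) (hd' : d ∈ Lf V t') : d = 0 := by
  by_contra h0
  exact hne (ht.eq_of_mem_L hK ht' hd hd' h0)

theorem IsRefl.pm (hK : KL H V) {t g : H} (ht : IsRefl V t) {d : V} (hd : d ∈ Lf V t)
    (hg : g • d ∈ Lf V t) : g • d = d ∨ g • d = -d := by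
  by_cases h0 : g • d - d = 0
  · exact Or.inl (sub_eq_zero.1 h0)
  · right
    have := ht.isHd hK (sub_mem hg hd) h0 d g (by abel)
    rw [ht.neg hK hd] at this
    rw [this]; abel

theorem IsRefl.comm_of_mem (hK : KL H V) {t g : H} (ht : IsRefl V t) {d : V} (hd : d ∈ Lf V t)
    (h0 : d ≠ 0) (hg : g • d ∈ Lf V t) : g * t = t * g := by
  have := (ht.conj g).eq_of_mem_L hK ht (smul_mem_L g hd) hg (smul_ne_zero' g h0)
  rw [mul_inv_eq_iff_eq_mul] at this
  exact this

theorem IsRefl.comm_of_fix (hK : KL H V) {t g : H} (ht : IsRefl V t) {d : V} (hd : d ∈ Lf V t)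
    (h0 : d ≠ 0) (hg : d ∈ Wf V g) : g * t = t * g :=
  ht.comm_of_mem hK hd h0 (by rw [mem_W.1 hg]; exact hd)

theorem smul_mem_L_of_comm {t g : H} (hc : g * t = t * g) {d : V} (hd : d ∈ Lf V t) :
    g • d ∈ Lf V t := by
  have := smul_mem_L g hd
  rwa [hc, mul_inv_cancel_right] at this

theorem IsRefl.unif (hK : KL H V) {t g : H} (ht : IsRefl V t) (hc : g * t = t * g) :
    (∀ d ∈ Lf V t, g • d = d) ∨ (∀ d ∈ Lf V t, g • d = -d) := by
  by_contra hcon
  push Not at hcon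
  obtain ⟨⟨a, ha, ha'⟩, b, hb, hb'⟩ := hcon
  have h1 := (ht.pm hK ha (smul_mem_L_of_comm hc ha)).resolve_left ha'
  have h2 := (ht.pm hK hb (smul_mem_L_of_comm hc hb)).resolve_right hb'
  rcases ht.pm hK (add_mem ha hb) (smul_mem_L_of_comm hc (add_mem ha hb)) with h | h
  · rw [smul_add, h2, add_left_inj] at h; exact ha' h
  · rw [smul_add, h1, neg_add, add_right_inj] at h; exact hb' h

theorem IsRefl.L_le_W (hK : KL H V) {t t' : H} (ht : IsRefl V t) (ht' : IsRefl V t')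
    (hne : t ≠ t') (hc : t' * t = t * t') : Lf V t ≤ Wf V t' := fun d hd => by
  rcases ht.pm hK hd (smul_mem_L_of_comm hc hd) with h | h
  · exact mem_W.2 h
  · have h1 : t' • d - d = 0 :=
      ht.L_inf_L hK ht' hne (by rw [h]; exact sub_mem (neg_mem hd) hd) (sub_mem_L _ _)
    exact mem_W.2 (sub_eq_zero.1 h1)

theorem IsRefl.fix_L (hK : KL H V) (hch : Two V ∨ NTwo V) {t g : H} (ht : IsRefl V t) {d : V}
    (hd : d ∈ Lf V t) (h0 : d ≠ 0) (hg : d ∈ Wf V g) : Lf V t ≤ Wf V g := by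
  rcases ht.unif hK (ht.comm_of_fix hK hd h0 hg) with h | h
  · exact fun v hv => mem_W.2 (h v hv)
  · rcases hch with h2 | h2
    · exact fun v hv => mem_W.2 (by rw [h v hv, neg_eq_iff_add_eq_zero]; exact h2 v)
    · exact absurd (h2 d (by have := h d hd; rw [mem_W.1 hg] at this; nth_rw 1 [this]; simp)) h0

theorem IsRefl.W_mul (hK : KL H V) {t t' : H} (ht : IsRefl V t) (ht' : IsRefl V t')
    (hne : t ≠ t') : Wf V (t * t') = Wf V t ⊓ Wf V t' := by
  refine le_antisymm (fun v hv => ?_) (inf_le_W_mul _ _)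
  rw [mem_W, mul_smul, ← eq_inv_smul_iff] at hv
  have h1 : t' • v - v = 0 :=
    ht.L_inf_L hK ht' hne (by rw [hv, ← L_inv]; exact sub_mem_L _ _) (sub_mem_L _ _)
  have h2 : t' • v = v := sub_eq_zero.1 h1
  have h3 : v ∈ Wf V t := by rw [← W_inv, mem_W, ← hv, h2]
  exact ⟨h3, mem_W.2 h2⟩

theorem IsRefl.L_inf_W (hK : KL H V) {t g : H} (ht : IsRefl V t) (hnc : g * t ≠ t * g) {d : V}
    (hd : d ∈ Lf V t) (hg : d ∈ Wf V g) : d = 0 := by
  by_contra h0
  exact hnc (ht.comm_of_fix hK hd h0 hg)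

theorem IsRefl.L_inf_W_self (hK : KL H V) (h2 : NTwo V) {t : H} (ht : IsRefl V t) {d : V}
    (hd : d ∈ Lf V t) (hg : d ∈ Wf V t) : d = 0 := by
  have := ht.neg hK hd
  rw [mem_W.1 hg] at this
  exact h2 d (by nth_rw 1 [this]; simp)

theorem IsRefl.L_le_W_self (hK : KL H V) (h2 : Two V) {t : H} (ht : IsRefl V t) :
    Lf V t ≤ Wf V t := fun d hd => by
  rw [mem_W, ht.neg hK hd, neg_eq_iff_add_eq_zero]; exact h2 d

variable [FaithfulSMul H V]

theorem eq_one_of_fix {g : H} (h : ∀ v : V, g • v = v) : g = 1 :=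
  eq_of_smul_eq_smul (α := V) fun v => by rw [h, one_smul]

theorem exists_L_ne_zero {g : H} (hg : g ≠ 1) : ∃ d : V, d ≠ 0 ∧ d ∈ Lf V g := by
  by_contra hc
  refine hg (eq_one_of_fix (V := V) fun v => ?_)
  by_contra h
  exact hc ⟨_, sub_ne_zero.2 h, sub_mem_L g v⟩

theorem IsRefl.mul_self (hK : KL H V) {t : H} (ht : IsRefl V t) : t * t = 1 := by
  refine eq_one_of_fix (V := V) fun v => ?_
  have h1 := ht.neg hK (sub_mem_L t v)
  rw [smul_sub, sub_eq_iff_eq_add] at h1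
  rw [mul_smul, h1]; abel

theorem IsRefl.inv (hK : KL H V) {t : H} (ht : IsRefl V t) : t⁻¹ = t :=
  inv_eq_of_mul_eq_one_right (ht.mul_self hK)

theorem IsRefl.smul_smul (hK : KL H V) {t : H} (ht : IsRefl V t) (v : V) : t • t • v = v := by
  rw [← mul_smul, ht.mul_self hK, one_smul]

theorem IsRefl.comm_of_L_le (hK : KL H V) {t g : H} (ht : IsRefl V t) (h : Lf V t ≤ Wf V g) :
    g * t = t * g := by
  obtain ⟨d, h0, hd⟩ := exists_L_ne_zero (V := V) ht.1
  exact ht.comm_of_fix hK hd h0 (h hd)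

variable [Finite H] [Finite V]

theorem two_le_card_L {g : H} (hg : g ≠ 1) : 2 ≤ Nat.card (Lf V g) := by
  obtain ⟨d, h0, hd⟩ := exists_L_ne_zero (V := V) hg
  haveI : Nontrivial (Lf V g) := ⟨⟨⟨d, hd⟩, 0, fun h => h0 (congrArg Subtype.val h)⟩⟩
  exact Finite.one_lt_card

theorem exists_refl {g : H} (hg : g ≠ 1) : ∃ t : H, IsRefl V t ∧ Wf V g ≤ Wf V t := by
  obtain ⟨t, ht, hmax⟩ := Set.exists_max_image {t : H | t ≠ 1 ∧ Wf V g ≤ Wf V t}
    (fun t => Nat.card (Wf V t)) (Set.toFinite _) ⟨g, hg, le_rfl⟩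
  refine ⟨t, ⟨ht.1, fun x hx hle => ?_⟩, ht.2⟩
  exact (AddSubgroup.eq_of_le_of_card_ge hle (hmax x ⟨hx, ht.2.trans hle⟩)).ge

theorem IsRefl.of_le {t g : H} (ht : IsRefl V t) (hg : g ≠ 1) (hle : Wf V t ≤ Wf V g) :
    IsRefl V g :=
  ⟨hg, fun x hx h => (ht.2 x hx (hle.trans h)).trans hle⟩

theorem IsRefl.card_L_le (hK : KL H V) {t g : H} (ht : IsRefl V t) (hnc : g * t ≠ t * g) :
    Nat.card (Lf V t) ≤ Nat.card (Lf V g) := by
  have h1 := card_mul_le (A := Lf V t) (B := Wf V g) (Y := ⊤) le_top le_top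
  rw [inf_eq_bot_iff'.2 fun v => ht.L_inf_W hK hnc, AddSubgroup.card_bot, mul_one, card_top',
    ← card_L_mul_W (V := V) g] at h1
  exact Nat.le_of_mul_le_mul_right h1 Nat.card_pos

theorem IsRefl.card_L_eq (hK : KL H V) {t t' : H} (ht : IsRefl V t) (ht' : IsRefl V t')
    (hnc : t * t' ≠ t' * t) : Nat.card (Lf V t') = Nat.card (Lf V t) :=
  le_antisymm (ht'.card_L_le hK hnc) (ht.card_L_le hK hnc.symm)

theorem IsRefl.U_inf_C (hK : KL H V) (hch : Two V ∨ NTwo V) {t t' : H} (ht : IsRefl V t)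
    (ht' : IsRefl V t') (hnc : t * t' ≠ t' * t) :
    (Lf V t ⊔ Lf V t') ⊓ (Wf V t ⊓ Wf V t') = ⊥ := by
  refine inf_eq_bot_iff'.2 fun x hx hc => ?_
  obtain ⟨a, ha, b, hb, rfl⟩ := AddSubgroup.mem_sup.1 hx
  have h1 := mem_W.1 hc.1
  have h2 := mem_W.1 hc.2
  rw [smul_add, ht.neg hK ha] at h1
  rw [smul_add, ht'.neg hK hb] at h2
  have h1' : t • b = b + (a + a) := by rw [← sub_eq_zero] at h1 ⊢; rw [← h1]; abel
  have h2' : t' • a = a + (b + b) := by rw [← sub_eq_zero] at h2 ⊢; rw [← h2]; abel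
  rcases hch with h | h
  · rw [h a, add_zero] at h1'
    rw [h b, add_zero] at h2'
    rw [ht.L_inf_W hK hnc.symm ha (mem_W.2 h2'), ht'.L_inf_W hK hnc hb (mem_W.2 h1'), add_zero]
  · have h3 : (t * t') • a = a + ((a + b) + (a + b)) := by
      rw [mul_smul, h2', smul_add, smul_add, h1', ht.neg hK ha]; abel
    have h4 : (t * t') • ((a + b) + (a + b)) = (a + b) + (a + b) :=
      mem_W.1 (add_mem (inf_le_W_mul _ _ hc) (inf_le_W_mul _ _ hc))
    exact h _ (h _ (hK.unip h3 h4))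

theorem IsRefl.card_U (hK : KL H V) {t t' : H} (ht : IsRefl V t)
    (ht' : IsRefl V t') (hne : t ≠ t') :
    Nat.card ↥(Lf V t ⊔ Lf V t') = Nat.card (Lf V t) * Nat.card (Lf V t') :=
  card_sup_disj (inf_eq_bot_iff'.2 fun v => ht.L_inf_L hK ht' hne)

theorem IsRefl.card_C (hK : KL H V) (hch : Two V ∨ NTwo V) {t t' : H} (ht : IsRefl V t)
    (ht' : IsRefl V t') (hnc : t * t' ≠ t' * t) :
    Nat.card (Lf V t) * Nat.card (Lf V t) * Nat.card ↥(Wf V t ⊓ Wf V t') = Nat.card V := by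
  have hne : t ≠ t' := fun h => hnc (by rw [h])
  have hq := ht.card_L_eq hK ht' hnc
  have h1 := card_mul_le (A := Lf V t ⊔ Lf V t') (B := Wf V t ⊓ Wf V t') (Y := ⊤) le_top le_top
  rw [ht.U_inf_C hK hch ht' hnc, AddSubgroup.card_bot, mul_one, card_top', ht.card_U hK ht' hne,
    hq] at h1
  have h2 := card_mul_le (A := Wf V t) (B := Wf V t') (Y := ⊤) le_top le_top
  rw [card_top'] at h2
  have h3 := card_L_mul_W (V := V) t
  have h4 := card_L_mul_W (V := V) t'
  rw [hq] at h4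
  refine le_antisymm h1 ?_
  have hp : 0 < Nat.card V := Nat.card_pos
  have h5 : Nat.card V * Nat.card V ≤
      Nat.card V * (Nat.card (Lf V t) * Nat.card (Lf V t) * Nat.card ↥(Wf V t ⊓ Wf V t')) := by
    calc Nat.card V * Nat.card V
        = (Nat.card (Lf V t) * Nat.card (Wf V t)) * (Nat.card (Lf V t) * Nat.card (Wf V t')) := by
          rw [h3, h4]
      _ = Nat.card (Lf V t) * Nat.card (Lf V t) * (Nat.card (Wf V t) * Nat.card (Wf V t')) := by
          ring
      _ ≤ Nat.card (Lf V t) * Nat.card (Lf V t) * (Nat.card V * Nat.card ↥(Wf V t ⊓ Wf V t')) :=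
          Nat.mul_le_mul_left _ h2
      _ = _ := by ring
  exact Nat.le_of_mul_le_mul_left h5 hp

theorem IsRefl.U_sup_C (hK : KL H V) (hch : Two V ∨ NTwo V) {t t' : H} (ht : IsRefl V t)
    (ht' : IsRefl V t') (hnc : t * t' ≠ t' * t) :
    (Lf V t ⊔ Lf V t') ⊔ (Wf V t ⊓ Wf V t') = ⊤ := by
  have hne : t ≠ t' := fun h => hnc (by rw [h])
  refine AddSubgroup.eq_of_le_of_card_ge le_top ?_
  rw [card_sup_disj (ht.U_inf_C hK hch ht' hnc), ht.card_U hK ht' hne, ht.card_L_eq hK ht' hnc,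
    ht.card_C hK hch ht' hnc, card_top']

/-- Odd case: two distinct commuting conjugate reflections have a common non-commuting
reflection. -/
theorem IsRefl.mc (hK : KL H V) (h2 : NTwo V) {t g : H} (ht : IsRefl V t)
    (hne : t ≠ g * t * g⁻¹) (hc : (g * t * g⁻¹) * t = t * (g * t * g⁻¹)) :
    ∃ x : H, IsRefl V x ∧ x * t ≠ t * x ∧ x * (g * t * g⁻¹) ≠ (g * t * g⁻¹) * x := by
  have ht' := ht.conj g
  set t' := g * t * g⁻¹ with ht'def
  obtain ⟨d, h0, hd⟩ := exists_L_ne_zero (V := V) ht.1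
  have hd' : g • d ∈ Lf V t' := smul_mem_L g hd
  have h0' : g • d ≠ 0 := smul_ne_zero' g h0
  have hLW : Lf V t ≤ Wf V t' := ht.L_le_W hK ht' hne hc
  have hLW' : Lf V t' ≤ Wf V t := ht'.L_le_W hK ht hne.symm hc.symm
  set d' := g • d with hd'def
  obtain ⟨h, hh⟩ := hK (d' - d)
  have e1 : g • d = d + (d' - d) := by rw [← hd'def]; abel
  have e2 : h • d = d' := by rw [hh _ _ e1]; abel
  have e3 : h • d' = d := by have := hh.swap e1; rwa [add_sub_cancel] at this
  have hdd : d ≠ d' := fun e => hne (ht.eq_of_mem_L hK ht' hd (e ▸ hd') h0)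
  have hh1 : h ≠ 1 := fun e => hdd (by rw [← e2, e, one_smul])
  -- halves
  have hsurj : ∀ {k : H}, IsRefl V k → ∀ a ∈ Lf V k, ∃ b ∈ Lf V k, b + b = a := by
    intro k hk a ha
    have hinj : Function.Injective (fun b : Lf V k => b + b) := fun b c e => by
      have e' : (b : V) + b = c + c := congrArg Subtype.val e
      refine Subtype.ext (sub_eq_zero.1 (h2 _ ?_))
      rw [← sub_eq_zero] at e'; rw [← e']; abel
    obtain ⟨b, hb⟩ := Finite.surjective_of_injective hinj ⟨a, ha⟩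
    exact ⟨b, b.2, congrArg Subtype.val hb⟩
  obtain ⟨a, ha, ha2⟩ := hsurj ht d hd
  obtain ⟨b, hb, hb2⟩ := hsurj ht' d' hd'
  have e4 : (t * t') • (a - b) = a - b + (d' - d) := by
    rw [mul_smul, smul_sub, mem_W.1 (hLW ha), ht'.neg hK hb, smul_sub, smul_neg, ht.neg hK ha,
      mem_W.1 (hLW' hb), ← ha2, ← hb2]; abel
  have hW : Wf V t ⊓ Wf V t' ≤ Wf V h := (inf_le_W_mul _ _).trans (hh.W_le e4)
  obtain ⟨x, hx, hxW⟩ := exists_refl (V := V) hh1
  have hs : d + d' ∈ Wf V x := hxW (by rw [mem_W, smul_add, e2, e3, add_comm])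
  have hxt : x ≠ t := fun e => by
    rw [e] at hs
    exact h0 (ht.L_inf_W_self hK h2 hd (by simpa using sub_mem hs (hLW' hd')))
  have hxt' : x ≠ t' := fun e => by
    rw [e] at hs
    exact h0' (ht'.L_inf_W_self hK h2 hd' (by simpa using sub_mem hs (hLW hd)))
  have both : ¬ (x * t = t * x ∧ x * t' = t' * x) := fun hb => by
    obtain ⟨c, c0, hcL⟩ := exists_L_ne_zero (V := V) hx.1
    exact c0 (hx.L_inf_W_self hK h2 hcL (hxW (hW
      ⟨hx.L_le_W hK ht hxt hb.1.symm hcL, hx.L_le_W hK ht' hxt' hb.2.symm hcL⟩)))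
  refine ⟨x, hx, fun e => both ⟨e, ?_⟩, fun e => both ⟨?_, e⟩⟩
  · exact ht'.comm_of_fix hK hd' h0' (by simpa using sub_mem hs (ht.L_le_W hK hx hxt.symm e hd))
  · exact ht.comm_of_fix hK hd h0 (by simpa using sub_mem hs (ht'.L_le_W hK hx hxt'.symm e hd'))

/-- Characteristic two: commuting conjugate reflections have the same fixed space. -/
theorem IsRefl.mc2 (hK : KL H V) (h2 : Two V) {r g : H} (hr : IsRefl V r)
    (hc : (g * r * g⁻¹) * r = r * (g * r * g⁻¹)) : Wf V (g * r * g⁻¹) ≤ Wf V r := by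
  have hk := hr.conj g
  set k := g * r * g⁻¹ with hkdef
  by_cases hne : r = k
  · rw [← hne]
  have hLW : Lf V r ≤ Wf V k := hr.L_le_W hK hk hne hc
  have hLW' : Lf V k ≤ Wf V r := hk.L_le_W hK hr (Ne.symm hne) hc.symm
  let psi : V →+ V :=
    { toFun := fun v => g • (r • v - v) - (k • v - v)
      map_zero' := by simp
      map_add' := fun a b => by simp only [smul_add, smul_sub]; abel }
  have hrange : psi.range ≤ Lf V k := by
    rintro _ ⟨v, rfl⟩
    exact sub_mem (smul_mem_L g (sub_mem_L r v)) (sub_mem_L k v)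
  have hker : psi.ker ≤ Wf V r ⊓ Wf V k := by
    intro v hv
    have hv' : g • (r • v - v) = k • v - v := sub_eq_zero.1 hv
    have hd : r • v - v ∈ Lf V r := sub_mem_L r v
    set d := r • v - v with hddef
    by_cases h0 : d = 0
    · refine ⟨mem_W.2 (sub_eq_zero.1 h0), mem_W.2 (sub_eq_zero.1 ?_)⟩
      rw [← hv', h0, smul_zero]
    exfalso
    have hd' : g • d ∈ Lf V k := smul_mem_L g hd
    obtain ⟨h, hh⟩ := hK (d + g • d)
    have e1 : g • d = d + (d + g • d) := by rw [← add_assoc, h2 d, zero_add]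
    have e2 : (r * k) • v = v + (d + g • d) := by
      have : k • v = v + g • d := by rw [hv']; abel
      rw [mul_smul, this, smul_add, mem_W.1 (hLW' hd'), hddef]; abel
    have e3 : d ∈ Wf V h := hh.W_le e2 (inf_le_W_mul _ _ ⟨hr.L_le_W_self hK h2 hd, hLW hd⟩)
    have e4 := hh _ _ e1
    rw [mem_W.1 e3, ← e1] at e4
    exact hne (hr.eq_of_mem_L hK hk hd (e4 ▸ hd') h0)
  have h1 : Nat.card psi.range * Nat.card psi.ker = Nat.card V := by
    rw [← AddSubgroup.index_ker, AddSubgroup.index_mul_card]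
  have h3 := card_L_mul_W (V := V) k
  have h4 := AddSubgroup.card_le_of_le hrange
  have h5 := AddSubgroup.card_le_of_le hker
  have h6 : Nat.card (Wf V k) ≤ Nat.card ↥(Wf V r ⊓ Wf V k) := by
    have : Nat.card (Lf V k) * Nat.card (Wf V k) ≤
        Nat.card (Lf V k) * Nat.card ↥(Wf V r ⊓ Wf V k) := by
      rw [h3, ← h1]; exact Nat.mul_le_mul h4 h5
    exact Nat.le_of_mul_le_mul_left this Nat.card_pos
  exact (AddSubgroup.eq_of_le_of_card_ge inf_le_right h6).ge.trans inf_le_left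

/-- Counting the root spaces inside a subgroup that they cover. -/
theorem count_roots (hK : KL H V) (S : AddSubgroup V) (q : ℕ)
    (hcov : ∀ v ∈ S, v ≠ 0 → ∃ x : H, IsRefl V x ∧ Lf V x ≤ S ∧ v ∈ Lf V x)
    (hq : ∀ x : H, IsRefl V x → Lf V x ≤ S → Nat.card (Lf V x) = q) :
    {x : H | IsRefl V x ∧ Lf V x ≤ S}.ncard * (q - 1) + 1 = Nat.card S := by
  classical
  haveI := Fintype.ofFinite H
  haveI := Fintype.ofFinite V
  have hcard : ∀ A : AddSubgroup V,
      (Finset.univ.filter fun v : V => v ∈ A ∧ v ≠ 0).card + 1 = Nat.card A := by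
    intro A
    have : (Finset.univ.filter fun v : V => v ∈ A) =
        insert 0 (Finset.univ.filter fun v : V => v ∈ A ∧ v ≠ 0) := by
      ext v; by_cases h : v = 0 <;> simp [h]
    rw [← Finset.card_insert_of_notMem (a := (0 : V)) (by simp), ← this, Nat.card_eq_fintype_card,
      Fintype.card_subtype]
  have hU : (Finset.univ.filter fun v : V => v ∈ S ∧ v ≠ 0) =
      (Finset.univ.filter fun x : H => IsRefl V x ∧ Lf V x ≤ S).biUnion
        fun x => Finset.univ.filter fun v : V => v ∈ Lf V x ∧ v ≠ 0 := by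
    ext v
    simp only [Finset.mem_filter, Finset.mem_univ, true_and, Finset.mem_biUnion]
    constructor
    · rintro ⟨hv, h0⟩
      obtain ⟨x, hx, hle, hm⟩ := hcov v hv h0
      exact ⟨x, ⟨hx, hle⟩, hm, h0⟩
    · rintro ⟨x, ⟨hx, hle⟩, hm, h0⟩
      exact ⟨hle hm, h0⟩
  rw [← hcard S, hU, Finset.card_biUnion, Finset.sum_const_nat (m := q - 1)]
  · congr 2
    rw [← Set.ncard_coe_finset]; congr 1; ext x; simp
  · intro x hx
    simp only [Finset.mem_filter, Finset.mem_univ, true_and] at hx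
    have := hcard (Lf V x)
    rw [hq x hx.1 hx.2] at this
    omega
  · intro x hx y hy hxy
    simp only [Finset.coe_filter, Finset.mem_univ, true_and, Set.mem_ofPred_eq] at hx hy
    rw [Function.onFun, Finset.disjoint_left]
    intro v hv hv'
    simp only [Finset.mem_filter, Finset.mem_univ, true_and] at hv hv'
    exact hxy (hx.1.eq_of_mem_L hK hy.1 hv.1 hv'.1 hv.2)

end Basic

end Cfsg.Agent.H98.Bin
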