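import Cfsg.Agent.H98.Bin0

/-!
Binary affine groups, part 1: the pointwise stabiliser of the common fixed space of two
non-commuting reflections is dihedral-like.
-/

set_option autoImplicit false
set_option linter.unusedSectionVars false
set_option linter.unusedVariables false
set_option linter.unusedSimpArgs false
set_option linter.style.haveILetI false

namespace Cfsg.Agent.H98.Bin

section Defs

variable {H : Type*} (V : Type*) [Group H] [AddCommGroup V] [DistribMulAction H V]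

/-- A pair of non-commuting reflections. -/
structure Pair (t₁ t₂ : H) : Prop where
  kl : KL H V
  ch : Two V ∨ NTwo V
  r1 : IsRefl V t₁
  r2 : IsRefl V t₂
  nc : t₁ * t₂ ≠ t₂ * t₁

/-- The common fixed space. -/
def Cf (t₁ t₂ : H) : AddSubgroup V := Wf V t₁ ⊓ Wf V t₂

/-- The sum of the two commutator spaces. -/
def Uf (t₁ t₂ : H) : AddSubgroup V := Lf V t₁ ⊔ Lf V t₂

/-- Elements fixing the common fixed space. -/
def InK (t₁ t₂ g : H) : Prop := Cf V t₁ t₂ ≤ Wf V g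

/-- Reflections fixing the common fixed space. -/
def InR (t₁ t₂ k : H) : Prop := IsRefl V k ∧ InK V t₁ t₂ k

end Defs

variable {H V : Type*} [Group H] [AddCommGroup V] [DistribMulAction H V] [FaithfulSMul H V]
  [Finite H] [Finite V] {t₁ t₂ : H}

theorem InK.mul {a b : H} (ha : InK V t₁ t₂ a) (hb : InK V t₁ t₂ b) : InK V t₁ t₂ (a * b) :=
  fun v hv => inf_le_W_mul _ _ ⟨ha hv, hb hv⟩

theorem InK.inv {a : H} (ha : InK V t₁ t₂ a) : InK V t₁ t₂ a⁻¹ := by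
  unfold InK; rw [W_inv]; exact ha

theorem InR.conj {g k : H} (hk : InR V t₁ t₂ k) (hg : InK V t₁ t₂ g) :
    InR V t₁ t₂ (g * k * g⁻¹) :=
  ⟨hk.1.conj g, (hg.mul hk.2).mul hg.inv⟩

theorem IsRefl.comm_of_W_le (hK : KL H V) {k k' : H} (hk : IsRefl V k) (hk' : IsRefl V k')
    (h : Wf V k ≤ Wf V k') : k * k' = k' * k := by
  by_cases h1 : k * k' = 1
  · have : k' = k := by rw [← hk.inv hK]; exact (eq_inv_of_mul_eq_one_right h1)
    rw [this]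
  · have h3 := (hk.of_le h1 fun v hv => inf_le_W_mul _ _ ⟨hv, h hv⟩).inv hK
    rw [mul_inv_rev, hk.inv hK, hk'.inv hK] at h3
    exact h3.symm

theorem IsRefl.W_inj_odd (hK : KL H V) (h2 : NTwo V) {k k' : H} (hk : IsRefl V k)
    (hk' : IsRefl V k') (h : Wf V k = Wf V k') : k = k' := by
  by_contra hne
  obtain ⟨d, h0, hd⟩ := exists_L_ne_zero (V := V) hk.1
  exact h0 (hk.L_inf_W_self hK h2 hd
    (h ▸ hk.L_le_W hK hk' hne (hk.comm_of_W_le hK hk' h.le).symm hd))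

namespace Pair

variable (P : Pair V t₁ t₂)
include P

theorem ne : t₁ ≠ t₂ := fun h => P.nc (by rw [h])

theorem R1 : InR V t₁ t₂ t₁ := ⟨P.r1, inf_le_left⟩

theorem R2 : InR V t₁ t₂ t₂ := ⟨P.r2, inf_le_right⟩

theorem two_le_q : 2 ≤ Nat.card (Lf V t₁) := two_le_card_L P.r1.1

theorem card_C : Nat.card (Lf V t₁) * Nat.card (Lf V t₁) * Nat.card (Cf V t₁ t₂) = Nat.card V :=
  P.r1.card_C P.kl P.ch P.r2 P.nc

theorem card_U : Nat.card (Uf V t₁ t₂) = Nat.card (Lf V t₁) * Nat.card (Lf V t₁) := by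
  rw [Uf, P.r1.card_U P.kl P.r2 P.ne, P.r1.card_L_eq P.kl P.r2 P.nc]

theorem U_sup_C : Uf V t₁ t₂ ⊔ Cf V t₁ t₂ = ⊤ := P.r1.U_sup_C P.kl P.ch P.r2 P.nc

theorem U_inf_C {v : V} (hu : v ∈ Uf V t₁ t₂) (hc : v ∈ Cf V t₁ t₂) : v = 0 :=
  inf_eq_bot_iff'.1 (P.r1.U_inf_C P.kl P.ch P.r2 P.nc) v hu hc

theorem nc_or {k : H} (hk : InR V t₁ t₂ k) : t₁ * k ≠ k * t₁ ∨ t₂ * k ≠ k * t₂ := by
  by_contra hcon
  push Not at hcon
  have h1 : t₁ ≠ k := fun h => P.nc (by rw [h]; exact hcon.2.symm)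
  have h2 : t₂ ≠ k := fun h => P.nc (by rw [h]; exact hcon.1)
  have h3 : (⊤ : AddSubgroup V) ≤ Wf V k := by
    rw [← P.U_sup_C]
    exact sup_le (sup_le (P.r1.L_le_W P.kl hk.1 h1 hcon.1.symm)
      (P.r2.L_le_W P.kl hk.1 h2 hcon.2.symm)) hk.2
  exact hk.1.1 (eq_one_of_fix (V := V) fun v => mem_W.1 (h3 trivial))

theorem card_L {k : H} (hk : InR V t₁ t₂ k) : Nat.card (Lf V k) = Nat.card (Lf V t₁) := by
  rcases P.nc_or hk with h | h
  · exact P.r1.card_L_eq P.kl hk.1 h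
  · rw [P.r2.card_L_eq P.kl hk.1 h, P.r1.card_L_eq P.kl P.r2 P.nc]

theorem L_inf_C {k : H} (hk : InR V t₁ t₂ k) {d : V} (hd : d ∈ Lf V k) (hc : d ∈ Cf V t₁ t₂) :
    d = 0 := by
  rcases P.nc_or hk with h | h
  · exact hk.1.L_inf_W P.kl h hd hc.1
  · exact hk.1.L_inf_W P.kl h hd hc.2

theorem card_W {k : H} (hk : InR V t₁ t₂ k) :
    Nat.card (Wf V k) = Nat.card (Lf V t₁) * Nat.card (Cf V t₁ t₂) := by
  have h1 := card_L_mul_W (V := V) k
  rw [P.card_L hk, ← P.card_C, mul_assoc] at h1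
  exact Nat.eq_of_mul_eq_mul_left Nat.card_pos h1

theorem W_eq_sup {k k' : H} (hk : InR V t₁ t₂ k) (hk' : InR V t₁ t₂ k') (h : Lf V k ≤ Wf V k') :
    Wf V k' = Lf V k ⊔ Cf V t₁ t₂ := by
  refine (AddSubgroup.eq_of_le_of_card_ge (sup_le h hk'.2) ?_).symm
  rw [card_sup_disj (inf_eq_bot_iff'.2 fun v => P.L_inf_C hk), P.card_L hk, P.card_W hk']

theorem exists_not_C {k : H} (hk : InR V t₁ t₂ k) : ∃ e, e ∈ Wf V k ∧ e ∉ Cf V t₁ t₂ := by
  by_contra hc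
  push Not at hc
  have h1 := AddSubgroup.card_le_of_le (show Wf V k ≤ Cf V t₁ t₂ from hc)
  rw [P.card_W hk] at h1
  have h2 := P.two_le_q
  have h3 : 0 < Nat.card (Cf V t₁ t₂) := Nat.card_pos
  nlinarith

theorem cover_of {g : H} (hg : InK V t₁ t₂ g) (h1 : g ≠ 1) {e : V} (he : e ∈ Wf V g) :
    ∃ k, InR V t₁ t₂ k ∧ e ∈ Wf V k := by
  obtain ⟨k, hk, hle⟩ := exists_refl (V := V) h1
  exact ⟨k, ⟨hk, hg.trans hle⟩, hle he⟩

theorem cover (e : V) : ∃ k, InR V t₁ t₂ k ∧ e ∈ Wf V k := by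
  have hs : InK V t₁ t₂ (t₁ * t₂) := P.R1.2.mul P.R2.2
  obtain ⟨h, hh⟩ := P.kl ((t₁ * t₂) • e - e)
  have e1 : (t₁ * t₂) • e = e + ((t₁ * t₂) • e - e) := by abel
  have hK : InK V t₁ t₂ h := hs.trans (hh.W_le e1)
  by_cases h1 : h⁻¹ * (t₁ * t₂) = 1
  · have h2 : h = t₁ * t₂ := inv_mul_eq_one.1 h1
    have h3 : (t₁ * t₂) * (t₁ * t₂) ≠ 1 := fun e => by
      have := inv_eq_of_mul_eq_one_right e
      rw [mul_inv_rev, P.r1.inv P.kl, P.r2.inv P.kl] at this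
      exact P.nc this.symm
    refine P.cover_of (hs.mul hs) h3 ?_
    have := hh.swap e1
    rw [← e1, h2] at this
    rw [mem_W, mul_smul, this]
  · refine P.cover_of (hK.inv.mul hs) h1 ?_
    rw [mem_W, mul_smul, e1, ← hh _ _ e1, inv_smul_smul]

theorem W_eq {k k' : H} (hk : InR V t₁ t₂ k) (hk' : InR V t₁ t₂ k') {e : V} (he : e ∈ Wf V k)
    (he' : e ∈ Wf V k') (hc : e ∉ Cf V t₁ t₂) : Wf V k = Wf V k' := by
  by_cases hne : k = k'
  · rw [hne]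
  by_cases hcm : k * k' = k' * k
  · have h1 := P.W_eq_sup hk hk' (hk.1.L_le_W P.kl hk'.1 hne hcm.symm)
    rcases P.ch with h2 | h2
    · rw [h1, P.W_eq_sup hk hk (hk.1.L_le_W_self P.kl h2)]
    · exfalso
      rw [h1] at he'
      obtain ⟨a, ha, c, hcc, rfl⟩ := AddSubgroup.mem_sup.1 he'
      have := hk.1.L_inf_W_self P.kl h2 ha (by simpa using sub_mem he (hk.2 hcc))
      exact hc (by rw [this, zero_add]; exact hcc)
  · exfalso
    have h1 := hk.1.card_C P.kl P.ch hk'.1 hcm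
    rw [P.card_L hk, ← P.card_C] at h1
    have h2 := Nat.eq_of_mul_eq_mul_left (Nat.mul_pos Nat.card_pos Nat.card_pos) h1
    have h3 := AddSubgroup.eq_of_le_of_card_ge (le_inf hk.2 hk'.2) h2.le
    exact hc (h3 ▸ (⟨he, he'⟩ : e ∈ Wf V k ⊓ Wf V k'))

theorem refl_of_fix {g : H} (hg : InK V t₁ t₂ g) (h1 : g ≠ 1) {e : V} (he : e ∈ Wf V g)
    (hc : e ∉ Cf V t₁ t₂) : InR V t₁ t₂ g := by
  obtain ⟨k, hk0, hle⟩ := exists_refl (V := V) h1
  have hk : InR V t₁ t₂ k := ⟨hk0, hg.trans hle⟩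
  rcases P.ch with h2 | h2
  · have h3 := P.W_eq_sup hk hk (hk.1.L_le_W_self P.kl h2)
    have h4 := hle he
    rw [h3] at h4
    obtain ⟨a, ha, c, hcc, rfl⟩ := AddSubgroup.mem_sup.1 h4
    have h0 : a ≠ 0 := fun h => hc (by rw [h, zero_add]; exact hcc)
    have h5 := hk0.fix_L P.kl P.ch ha h0 (g := g) (by simpa using sub_mem he (hg hcc))
    exact ⟨hk0.of_le h1 (by rw [h3]; exact sup_le h5 hg), hg⟩
  · have h3 : e ∈ Wf V (g * k * g⁻¹) := by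
      have := smul_mem_W g (hle he)
      rwa [mem_W.1 he] at this
    have h4 := (hk.conj hg).1.W_inj_odd P.kl h2 hk0 (P.W_eq (hk.conj hg) hk h3 (hle he) hc)
    rw [mul_inv_eq_iff_eq_mul] at h4
    obtain ⟨d, h0, hd⟩ := exists_L_ne_zero (V := V) hk0.1
    rcases hk0.unif P.kl h4 with h | h
    · exact absurd (hk0.L_inf_W_self P.kl h2 hd (hle (mem_W.2 (h d hd)))) h0
    · by_cases h5 : g * k = 1
      · have : g = k := by rw [← hk0.inv P.kl]; exact eq_inv_of_mul_eq_one_left h5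
        rw [this]; exact hk
      · exfalso
        obtain ⟨k', hk', hle'⟩ := exists_refl (V := V) h5
        have hR : InR V t₁ t₂ k' := ⟨hk', (hg.mul hk.2).trans hle'⟩
        have h6 := P.W_eq hR hk (hle' (inf_le_W_mul _ _ ⟨he, hle he⟩)) (hle he) hc
        refine h0 (hk0.L_inf_W_self P.kl h2 hd (h6 ▸ hle' ?_))
        rw [mem_W, mul_smul, hk0.neg P.kl hd, smul_neg, h d hd, neg_neg]

theorem orbit_two (h2 : Two V) {k g : H} (hk : InR V t₁ t₂ k) (hg : InK V t₁ t₂ g) {e : V}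
    (he : e ∈ Lf V k) (hge : g • e ∈ Wf V k) : g • e = e := by
  by_contra hne
  have h0 : e ≠ 0 := fun h => hne (by rw [h, smul_zero])
  have hk2 := hk.conj hg
  have he' : g • e ∈ Lf V (g * k * g⁻¹) := smul_mem_L g he
  set k2 := g * k * g⁻¹ with hk2def
  have h0' := smul_ne_zero' g h0
  have hW : Wf V k2 = Wf V k :=
    P.W_eq hk2 hk (hk2.1.L_le_W_self P.kl h2 he') hge fun h => h0' (P.L_inf_C hk2 he' h)
  by_cases hkk : k2 = k
  · rcases hk.1.pm P.kl he (hkk ▸ he') with h | h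
    · exact hne h
    · exact hne (by rw [h, neg_eq_iff_add_eq_zero]; exact h2 e)
  obtain ⟨h, hh⟩ := P.kl (g • e - e)
  have e1 : g • e = e + (g • e - e) := by abel
  have e2 : h • e = g • e := by rw [hh _ _ e1, ← e1]
  have e3 : h • g • e = e := by have := hh.swap e1; rwa [← e1] at this
  have hK : InK V t₁ t₂ h := hg.trans (hh.W_le e1)
  have c1 : h * k * h⁻¹ = k2 :=
    (hk.1.conj h).eq_of_mem_L P.kl hk2.1 (e2 ▸ smul_mem_L h he) he' h0'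
  have c2 : h * k2 * h⁻¹ = k :=
    (hk2.1.conj h).eq_of_mem_L P.kl hk.1 (by have := smul_mem_L h he'; rwa [e3] at this) he h0
  have cm := hk.1.comm_of_W_le P.kl hk2.1 hW.ge
  have h31 : k * k2 ≠ 1 := fun e => hkk (by rw [← hk.1.inv P.kl]; exact eq_inv_of_mul_eq_one_right e)
  have hle : Wf V k ≤ Wf V (k * k2) := fun v hv => inf_le_W_mul _ _ ⟨hv, hW ▸ hv⟩
  have hk3 : InR V t₁ t₂ (k * k2) := ⟨hk.1.of_le h31 hle, hk.2.mul hk2.2⟩
  have c3 : h * (k * k2) = (k * k2) * h := by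
    rw [← mul_inv_eq_iff_eq_mul]
    calc h * (k * k2) * h⁻¹ = (h * k * h⁻¹) * (h * k2 * h⁻¹) := by group
      _ = k * k2 := by rw [c1, c2, cm]
  have hL : Lf V (k * k2) ≤ Wf V h := fun d hd => by
    rcases hk3.1.unif P.kl c3 with h | h
    · exact mem_W.2 (h d hd)
    · exact mem_W.2 (by rw [h d hd, neg_eq_iff_add_eq_zero]; exact h2 d)
  have h4 := P.W_eq_sup hk3 hk ((hk3.1.L_le_W_self P.kl h2).trans (hk.1.2 _ h31 hle))
  have h5 : e ∈ Wf V h := by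
    have := hk.1.L_le_W_self P.kl h2 he
    rw [h4] at this
    exact sup_le hL hK this
  exact hne (by rw [← e2, mem_W.1 h5])

theorem two_aux (h2 : Two V) {k₀ : H} (hk₀ : InR V t₁ t₂ k₀) :
    (∀ k k', InR V t₁ t₂ k → InR V t₁ t₂ k' → Wf V k ≠ Wf V k₀ → Wf V k = Wf V k' → k = k') ∧
    (∀ k, InR V t₁ t₂ k → Wf V k ≠ Wf V k₀ → ∃ g : H, k = g * k₀ * g⁻¹) := by
  obtain ⟨e, h0, he⟩ := exists_L_ne_zero (V := V) hk₀.1.1
  have heW := hk₀.1.L_le_W_self P.kl h2 he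
  have heC : e ∉ Cf V t₁ t₂ := fun h => h0 (P.L_inf_C hk₀ he h)
  have hnot : ∀ k, InR V t₁ t₂ k → Wf V k ≠ Wf V k₀ → e ∉ Wf V k := fun k hk hne h =>
    hne (P.W_eq hk hk₀ h heW heC)
  let A := {k : H // InR V t₁ t₂ k ∧ Wf V k ≠ Wf V k₀}
  have hmem : ∀ k : H, InR V t₁ t₂ k → k • e ∈ Wf V (k * k₀ * k⁻¹) := fun k hk =>
    smul_mem_W k heW
  let c : A → A := fun k => ⟨k.1 * k₀ * k.1⁻¹, hk₀.conj k.2.1.2, fun h =>
    hnot k.1 k.2.1 k.2.2 (mem_W.2 (P.orbit_two h2 hk₀ k.2.1.2 he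
      (by have := hmem k.1 k.2.1; rwa [h] at this)))⟩
  have hinj : ∀ k k' : A, Wf V (c k).1 = Wf V (c k').1 → k = k' := by
    intro k k' h
    have h1 : k.1 • e ∈ Wf V (k'.1 * k₀ * k'.1⁻¹) := by
      have := hmem k.1 k.2.1
      exact (show Wf V (k.1 * k₀ * k.1⁻¹) = Wf V (k'.1 * k₀ * k'.1⁻¹) from h) ▸ this
    rw [mem_W_conj, ← mul_smul] at h1
    have h3 := P.orbit_two h2 hk₀ (k'.2.1.2.inv.mul k.2.1.2) he h1
    rw [mul_smul, inv_smul_eq_iff] at h3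
    refine Subtype.ext (k.2.1.1.eq_of_mem_L P.kl k'.2.1.1 (sub_mem_L k.1 e)
      (h3 ▸ sub_mem_L k'.1 e) fun h4 => hnot k.1 k.2.1 k.2.2 (mem_W.2 (sub_eq_zero.1 h4)))
  have hsurj : Function.Surjective c :=
    Finite.surjective_of_injective fun k k' h => hinj k k' (by rw [h])
  constructor
  · intro k k' hk hk' hne h
    obtain ⟨a, ha⟩ := hsurj ⟨k, hk, hne⟩
    obtain ⟨b, hb⟩ := hsurj ⟨k', hk', h ▸ hne⟩
    have := hinj a b (by rw [ha, hb]; exact h)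
    rw [this, hb] at ha
    exact (congrArg Subtype.val ha).symm
  · intro k hk hne
    obtain ⟨a, ha⟩ := hsurj ⟨k, hk, hne⟩
    exact ⟨a.1, (congrArg Subtype.val ha).symm⟩

theorem W12 : Wf V t₁ ≠ Wf V t₂ := fun h => P.nc (P.r1.comm_of_W_le P.kl P.r2 h.le)

theorem W_inj {k k' : H} (hk : InR V t₁ t₂ k) (hk' : InR V t₁ t₂ k') (h : Wf V k = Wf V k') :
    k = k' := by
  rcases P.ch with h2 | h2
  · by_cases h1 : Wf V k = Wf V t₁
    · exact (P.two_aux h2 P.R2).1 k k' hk hk' (fun e => P.W12 (h1.symm.trans e)) h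
    · exact (P.two_aux h2 P.R1).1 k k' hk hk' h1 h
  · exact hk.1.W_inj_odd P.kl h2 hk'.1 h

theorem conj_two (h2 : Two V) {k : H} (hk : InR V t₁ t₂ k) : ∃ g : H, k = g * t₁ * g⁻¹ := by
  by_cases h1 : Wf V k = Wf V t₁
  · exact ⟨1, by simpa using P.W_inj hk P.R1 h1⟩
  · exact (P.two_aux h2 P.R1).2 k hk h1

theorem eq_of_fix {k k' : H} (hk : InR V t₁ t₂ k) (hk' : InR V t₁ t₂ k') {e : V} (he : e ∈ Wf V k)
    (he' : e ∈ Wf V k') (hc : e ∉ Cf V t₁ t₂) : k = k' :=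
  P.W_inj hk hk' (P.W_eq hk hk' he he' hc)

/-- Every move by an element of `K` is made by a reflection. -/
theorem all_roots {g : H} (hg : InK V t₁ t₂ g) (e : V) : ∃ k, InR V t₁ t₂ k ∧ g • e = k • e := by
  by_cases h0 : g • e - e = 0
  · obtain ⟨k, hk, he⟩ := P.cover e
    exact ⟨k, hk, by rw [mem_W.1 he, sub_eq_zero.1 h0]⟩
  set d := g • e - e with hd
  obtain ⟨h, hh⟩ := P.kl d
  have e1 : g • e = e + d := by rw [hd]; abel
  have e2 := hh _ _ e1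
  have hK : InK V t₁ t₂ h := hg.trans (hh.W_le e1)
  have h1 : h ≠ 1 := fun e => not_mem_W e2 h0 (by rw [e, mem_W, one_smul])
  by_cases hW : Wf V h ≤ Cf V t₁ t₂
  swap
  · obtain ⟨e', he', hc⟩ := SetLike.not_le_iff_exists.1 hW
    exact ⟨h, P.refl_of_fix hK h1 he' hc, by rw [e1, e2]⟩
  have hA : ∀ k, InR V t₁ t₂ k → d ∈ Wf V k → e ∈ Wf V k := by
    intro k hk hdk
    have e3 : (k * g * k⁻¹) • (k • e) = k • e + d := by
      rw [mul_smul, inv_smul_smul, mul_smul, e1, smul_add, mem_W.1 hdk]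
    exact mem_W.2 (sub_eq_zero.1 (P.L_inf_C hk (sub_mem_L k e) (hW (hh.sub_mem e1 e3))))
  have hdC : d ∉ Cf V t₁ t₂ := fun hc =>
    not_mem_W e1 h0 (hg ⟨hA _ P.R1 hc.1, hA _ P.R2 hc.2⟩)
  have e4 := hh.neg e1
  rcases P.ch with h2 | h2
  · exact absurd (hW (mem_W.2 (by rw [e4, neg_eq_iff_add_eq_zero]; exact h2 d))) hdC
  obtain ⟨k, hk, hdk⟩ := P.cover d
  have h3 : d ∈ Wf V (h * k * h⁻¹) := by
    have := smul_mem_W h hdk
    rwa [e4, neg_mem_iff] at this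
  have h4 := P.eq_of_fix (hk.conj hK) hk h3 hdk hdC
  rw [mul_inv_eq_iff_eq_mul] at h4
  obtain ⟨a, a0, ha⟩ := exists_L_ne_zero (V := V) hk.1.1
  have haC : a ∉ Cf V t₁ t₂ := fun hc => a0 (P.L_inf_C hk ha hc)
  rcases hk.1.unif P.kl h4 with h5 | h5
  · exact absurd (hW (mem_W.2 (h5 a ha))) haC
  · have h6 : h * k ≠ 1 := fun e => by
      have : h = k⁻¹ := eq_inv_of_mul_eq_one_left e
      exact hdC (hW (by rw [this, W_inv]; exact hdk))
    refine ⟨h * k, P.refl_of_fix (hK.mul hk.2) h6 ?_ haC, ?_⟩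
    · rw [mem_W, mul_smul, hk.1.neg P.kl ha, smul_neg, h5 a ha, neg_neg]
    · rw [mul_smul, mem_W.1 (hA k hk hdk), e1, e2]

theorem mul_R {g k : H} (hg : InK V t₁ t₂ g) (hgR : ¬ InR V t₁ t₂ g) (hk : InR V t₁ t₂ k) :
    InR V t₁ t₂ (g * k) := by
  obtain ⟨e, he, hc⟩ := P.exists_not_C hk
  obtain ⟨k', hk', h1⟩ := P.all_roots hg e
  have h2 : k' * g ≠ 1 := fun h => hgR (by
    rw [eq_inv_of_mul_eq_one_right h, hk'.1.inv P.kl]; exact hk')
  have h3 : e ∈ Wf V (k' * g) := by rw [mem_W, mul_smul, h1, hk'.1.smul_smul P.kl]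
  have h4 := P.eq_of_fix (P.refl_of_fix (hk'.2.mul hg) h2 h3 hc) hk h3 he hc
  have h5 : g * k = k' := by
    have : g = k' * k := by rw [← h4, ← mul_assoc, hk'.1.mul_self P.kl, one_mul]
    rw [this, mul_assoc, hk.1.mul_self P.kl, mul_one]
  rw [h5]; exact hk'

theorem not_R_mul {k k' : H} (hk : InR V t₁ t₂ k) (hk' : InR V t₁ t₂ k') :
    ¬ InR V t₁ t₂ (k * k') := fun h => by
  by_cases hne : k = k'
  · exact h.1.1 (by rw [← hne, hk.1.mul_self P.kl])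
  obtain ⟨e, he, hc⟩ := P.exists_not_C h
  rw [hk.1.W_mul P.kl hk'.1 hne] at he
  exact hne (P.eq_of_fix hk hk' he.1 he.2 hc)

theorem conj_inv {g k : H} (hg : InK V t₁ t₂ g) (hgR : ¬ InR V t₁ t₂ g) (hk : InR V t₁ t₂ k) :
    k * g * k⁻¹ = g⁻¹ := by
  have h1 := (P.mul_R hg hgR hk).1.mul_self P.kl
  rw [hk.1.inv P.kl]
  exact eq_inv_of_mul_eq_one_right (by rw [← h1]; group)

theorem L_s : Lf V (t₁ * t₂) = Uf V t₁ t₂ := by
  refine AddSubgroup.eq_of_le_of_card_ge ?_ ?_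
  · intro d hd
    obtain ⟨v, hv⟩ := mem_L.1 hd
    have : d = (t₁ • (t₂ • v) - t₂ • v) + (t₂ • v - v) := by rw [← mul_smul, hv]; abel
    rw [this]
    exact add_mem (AddSubgroup.mem_sup_left (sub_mem_L _ _))
      (AddSubgroup.mem_sup_right (sub_mem_L _ _))
  · have h1 := card_L_mul_W (V := V) (t₁ * t₂)
    rw [P.r1.W_mul P.kl P.r2 P.ne, ← P.card_C] at h1
    rw [P.card_U]
    exact (Nat.eq_of_mul_eq_mul_right Nat.card_pos h1).ge

theorem smul_mem_U {k : H} (hk : InR V t₁ t₂ k) {u : V} (hu : u ∈ Uf V t₁ t₂) :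
    k • u ∈ Uf V t₁ t₂ := by
  rw [← P.L_s] at hu ⊢
  have := smul_mem_L k hu
  rwa [P.conj_inv (P.R1.2.mul P.R2.2) (P.not_R_mul P.R1 P.R2) hk, L_inv] at this

theorem L_le_U {k : H} (hk : InR V t₁ t₂ k) : Lf V k ≤ Uf V t₁ t₂ := fun d hd => by
  obtain ⟨v, hv⟩ := mem_L.1 hd
  have : v ∈ Uf V t₁ t₂ ⊔ Cf V t₁ t₂ := by rw [P.U_sup_C]; trivial
  obtain ⟨u, hu, c, hc, rfl⟩ := AddSubgroup.mem_sup.1 this
  rw [smul_add, mem_W.1 (hk.2 hc)] at hv
  have : d = k • u - u := by rw [eq_sub_iff_add_eq, ← add_left_inj c, hv]; abel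
  rw [this]
  exact sub_mem (P.smul_mem_U hk hu) hu

theorem root {u : V} (hu : u ∈ Uf V t₁ t₂) : ∃ k, InR V t₁ t₂ k ∧ u ∈ Lf V k := by
  rw [← P.L_s] at hu
  obtain ⟨v, hv⟩ := mem_L.1 hu
  obtain ⟨k, hk, h⟩ := P.all_roots (P.R1.2.mul P.R2.2) v
  exact ⟨k, hk, mem_L.2 ⟨v, by rw [← h, hv]⟩⟩

theorem R_of_L_le {x : H} (hx : IsRefl V x) {d : V} (hd : d ∈ Lf V x) (h0 : d ≠ 0)
    (hu : d ∈ Uf V t₁ t₂) : InR V t₁ t₂ x := by
  obtain ⟨k, hk, h⟩ := P.root hu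
  rw [hx.eq_of_mem_L P.kl hk.1 hd h h0]; exact hk

end Pair

end Cfsg.Agent.H98.Bin
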