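import Cfsg.Agent.H98.Bin1

/-!
Binary affine groups, part 2: exclusion of rank three, and the structure of an irreducible group.
-/

set_option autoImplicit false
set_option linter.unusedSectionVars false
set_option linter.unusedVariables false
set_option linter.unusedSimpArgs false
set_option linter.style.haveILetI false

namespace Cfsg.Agent.H98.Bin

variable {H V : Type*} [Group H] [AddCommGroup V] [DistribMulAction H V] [FaithfulSMul H V]
  [Finite H] [Finite V] {t₁ t₂ : H}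

theorem class_card (hK : KL H V) (h2 : NTwo V) (Y : AddSubgroup V) (q : ℕ) (hq : 2 ≤ q)
    (hY : Nat.card Y = q * q * q)
    (hcov : ∀ y ∈ Y, y ≠ 0 → ∃ x : H, IsRefl V x ∧ Lf V x ≤ Y ∧ y ∈ Lf V x)
    (hL : ∀ x : H, IsRefl V x → Lf V x ≤ Y → Nat.card (Lf V x) = q) {y : V} (hy : y ∈ Y)
    (h0 : y ≠ 0) : {z : V | z ∈ Y ∧ ∃ g : H, g • y = z}.ncard = q * q + 1 := by
  obtain ⟨x₀, hx₀, hle₀, hy₀⟩ := hcov y hy h0
  have hq₀ := hL x₀ hx₀ hle₀
  set S := Wf V x₀ ⊓ Y with hS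
  have hcS : Nat.card S = q * q := by
    have h1 := card_mul_le (A := Wf V x₀) (B := Y) (Y := ⊤) le_top le_top
    rw [card_top', ← card_L_mul_W (V := V) x₀, hq₀, hY, ← hS] at h1
    have h3 := card_mul_le (A := Lf V x₀) (B := S) (Y := Y) hle₀ inf_le_right
    rw [(inf_eq_bot_iff' (B := S)).2 fun v hv hs => hx₀.L_inf_W_self hK h2 hv hs.1,
      AddSubgroup.card_bot, mul_one, hq₀, hY, mul_assoc] at h3
    have h4 : 0 < Nat.card (Wf V x₀) := Nat.card_pos
    refine le_antisymm (Nat.le_of_mul_le_mul_left h3 (by omega)) ?_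
    refine Nat.le_of_mul_le_mul_left (c := q * Nat.card (Wf V x₀)) ?_ (by positivity)
    calc q * Nat.card (Wf V x₀) * (q * q) = Nat.card (Wf V x₀) * (q * q * q) := by ring
      _ ≤ _ := h1
  have c1 := count_roots hK Y q hcov hL
  have c2 := count_roots hK S q (fun v hv hv0 => by
    obtain ⟨x, hx, hle, hm⟩ := hcov v hv.2 hv0
    exact ⟨x, hx, le_inf (hx.fix_L hK (Or.inr h2) hm hv0 hv.1) hle, hm⟩)
    fun x hx hle => hL x hx (hle.trans inf_le_right)
  set SY := {x : H | IsRefl V x ∧ Lf V x ≤ Y} with hSY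
  set SS := {x : H | IsRefl V x ∧ Lf V x ≤ S} with hSS
  have hsub : SS ⊆ SY := fun x hx => ⟨hx.1, hx.2.trans inf_le_right⟩
  have hfix : ∀ x ∈ SY, (x ∈ SS ↔ y ∈ Wf V x) := by
    intro x hx
    constructor
    · intro h
      obtain ⟨d, d0, hd⟩ := exists_L_ne_zero (V := V) hx.1.1
      have hne : x₀ ≠ x := fun e => d0 (hx.1.L_inf_W_self hK h2 hd (e ▸ (h.2 hd).1))
      exact hx₀.L_le_W hK hx.1 hne (hx.1.comm_of_L_le hK (h.2.trans inf_le_left)).symm hy₀
    · intro h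
      have hne : x ≠ x₀ := fun e => h0 (hx₀.L_inf_W_self hK h2 hy₀ (e ▸ h))
      exact ⟨hx.1, le_inf (hx.1.L_le_W hK hx₀ hne (hx₀.comm_of_fix hK hy₀ h0 h).symm) hx.2⟩
  have hset : {z : V | z ∈ Y ∧ ∃ g : H, g • y = z} = insert y ((fun x : H => x • y) '' (SY \ SS)) := by
    ext z
    simp only [Set.mem_ofPred_eq, Set.mem_insert_iff, Set.mem_image, Set.mem_sdiff]
    constructor
    · rintro ⟨hz, g, rfl⟩
      by_cases e : g • y = y
      · exact Or.inl e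
      obtain ⟨x, hx, hle, hm⟩ := hcov _ (sub_mem hz hy) (sub_ne_zero.2 e)
      have e1 := hx.isHd hK hm (sub_ne_zero.2 e) y g (by abel)
      refine Or.inr ⟨x, ⟨⟨hx, hle⟩, fun h => ?_⟩, by rw [e1]; abel⟩
      exact not_mem_W e1 (sub_ne_zero.2 e) ((hfix x ⟨hx, hle⟩).1 h)
    · rintro (rfl | ⟨x, ⟨hx, -⟩, rfl⟩)
      · exact ⟨hy, 1, one_smul _ _⟩
      · refine ⟨?_, x, rfl⟩
        have := add_mem (hx.2 (sub_mem_L x y)) hy
        simpa using this
  have hinj : Set.InjOn (fun x : H => x • y) (SY \ SS) := by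
    intro x hx x' hx' e
    have e' : x • y = x' • y := e
    exact hx.1.1.eq_of_mem_L hK hx'.1.1 (sub_mem_L x y) (e' ▸ sub_mem_L x' y)
      fun h => hx.2 ((hfix x hx.1).2 (mem_W.2 (sub_eq_zero.1 h)))
  have hnot : y ∉ (fun x : H => x • y) '' (SY \ SS) := by
    rintro ⟨x, hx, e⟩
    exact hx.2 ((hfix x hx.1).2 (mem_W.2 e))
  rw [hset, Set.ncard_insert_of_notMem hnot, hinj.ncard_image]
  have c3 := Set.ncard_sdiff_add_ncard_of_subset hsub
  rw [hY] at c1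
  rw [hcS] at c2
  obtain ⟨p, rfl⟩ : ∃ p, q = p + 1 := ⟨q - 1, by omega⟩
  rw [Nat.add_sub_cancel] at c1 c2
  rw [← c3, add_mul] at c1
  have h5 : (SY \ SS).ncard * p = (p + 1) * (p + 1) * p := by nlinarith
  rw [Nat.eq_of_mul_eq_mul_right (by omega) h5]

theorem no_rank3 (hK : KL H V) (h2 : NTwo V) (Y : AddSubgroup V) (q : ℕ) (hq : 2 ≤ q)
    (hY : Nat.card Y = q * q * q)
    (hcov : ∀ y ∈ Y, y ≠ 0 → ∃ x : H, IsRefl V x ∧ Lf V x ≤ Y ∧ y ∈ Lf V x)
    (hL : ∀ x : H, IsRefl V x → Lf V x ≤ Y → Nat.card (Lf V x) = q) : False := by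
  classical
  haveI := Fintype.ofFinite V
  let s := Finset.univ.filter fun v : V => v ∈ Y ∧ v ≠ 0
  have hs : s.card + 1 = q * q * q := by
    have : (Finset.univ.filter fun v : V => v ∈ Y) = insert 0 s := by
      ext v; by_cases h : v = 0 <;> simp [h, s]
    rw [← Finset.card_insert_of_notMem (a := (0 : V)) (by simp [s]), ← this, ← hY,
      Nat.card_eq_fintype_card, Fintype.card_subtype]
  have hd : q * q + 1 ∣ s.card := by
    rw [Finset.card_eq_sum_card_image (fun v : V => MulAction.orbit H v) s]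
    refine Finset.dvd_sum fun b hb => ?_
    obtain ⟨y, hy, rfl⟩ := Finset.mem_image.1 hb
    simp only [s, Finset.mem_filter, Finset.mem_univ, true_and] at hy
    rw [← class_card hK h2 Y q hq hY hcov hL hy.1 hy.2, ← Set.ncard_coe_finset]
    refine dvd_of_eq ?_
    congr 1
    ext z
    simp only [s, Set.mem_ofPred_eq, Finset.coe_filter, Finset.mem_filter, Finset.mem_univ,
      true_and, MulAction.orbit_eq_iff, MulAction.mem_orbit_iff]
    constructor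
    · rintro ⟨hz, g, rfl⟩
      exact ⟨⟨hz, smul_ne_zero' g hy.2⟩, g, rfl⟩
    · rintro ⟨⟨hz, -⟩, h⟩
      exact ⟨hz, h⟩
  have h3 : q * q + 1 ∣ q + 1 := by
    have : s.card + (q + 1) = q * (q * q + 1) := by nlinarith
    exact (Nat.dvd_add_right hd).1 (this ▸ Dvd.intro_left q rfl)
  have := Nat.le_of_dvd (by omega) h3
  nlinarith

theorem Pair.exists_U_W (P : Pair V t₁ t₂) {r : H} (hr : Nat.card (Lf V r) = Nat.card (Lf V t₁)) :
    ∃ u, u ≠ 0 ∧ u ∈ Uf V t₁ t₂ ∧ u ∈ Wf V r := by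
  refine exists_mem_inf (Y := ⊤) le_top le_top ?_
  rw [card_top', ← card_L_mul_W (V := V) r, hr, P.card_U]
  have h1 := P.two_le_q
  have h2 : 0 < Nat.card (Wf V r) := Nat.card_pos
  refine Nat.mul_lt_mul_of_pos_right ?_ h2
  nlinarith

theorem Pair.refl_cases (P : Pair V t₁ t₂) (h2 : NTwo V) {r : H} (hr : IsRefl V r) :
    Lf V r ≤ Uf V t₁ t₂ ∨ Uf V t₁ t₂ ≤ Wf V r := by
  by_contra hcon
  push Not at hcon
  obtain ⟨hL, hU⟩ := hcon
  have hrR : ¬ InR V t₁ t₂ r := fun h => hL (P.L_le_U h)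
  have hne : ∀ k, InR V t₁ t₂ k → k ≠ r := fun k hk e => hrR (e ▸ hk)
  have hq : Nat.card (Lf V r) = Nat.card (Lf V t₁) := by
    by_cases c1 : t₁ * r = r * t₁
    · by_cases c2 : t₂ * r = r * t₂
      · exact absurd (sup_le (P.r1.L_le_W P.kl hr (hne _ P.R1) c1.symm)
          (P.r2.L_le_W P.kl hr (hne _ P.R2) c2.symm)) hU
      · rw [P.r2.card_L_eq P.kl hr c2, P.card_L P.R2]
    · exact P.r1.card_L_eq P.kl hr c1
  obtain ⟨u₀, h0, hu₀, hW₀⟩ := P.exists_U_W hq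
  obtain ⟨k₀, hk₀, hL₀⟩ := P.root hu₀
  have hc₀ := hk₀.1.comm_of_fix P.kl hL₀ h0 hW₀
  have hLW₀ := hk₀.1.L_le_W P.kl hr (hne _ hk₀) hc₀
  have hLW₀' := hr.L_le_W P.kl hk₀.1 (hne _ hk₀).symm hc₀.symm
  have hnc : ∀ k, InR V t₁ t₂ k → k ≠ k₀ → r * k ≠ k * r := by
    intro k hk hkk e
    refine hU ?_
    have h1 : Lf V k ⊔ Lf V k₀ = Uf V t₁ t₂ := by
      refine AddSubgroup.eq_of_le_of_card_ge (sup_le (P.L_le_U hk) (P.L_le_U hk₀)) ?_
      rw [hk.1.card_U P.kl hk₀.1 hkk, P.card_U, P.card_L hk, P.card_L hk₀]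
    rw [← h1]
    exact sup_le (hk.1.L_le_W P.kl hr (hne _ hk) e) hLW₀
  set Y := Uf V t₁ t₂ ⊔ Lf V r with hYdef
  have hA : ∀ u ∈ Uf V t₁ t₂, u ∉ Lf V k₀ → ∀ a ∈ Lf V r, ∃ x : H, IsRefl V x ∧ Lf V x ≤ Y ∧
      Nat.card (Lf V x) = Nat.card (Lf V t₁) ∧ u + a ∈ Lf V x := by
    intro u hu hu' a ha
    obtain ⟨k, hk, hm⟩ := P.root hu
    have P' : Pair V r k := ⟨P.kl, P.ch, hr, hk.1, hnc k hk fun e => hu' (e ▸ hm)⟩
    obtain ⟨x, hx, hxm⟩ := P'.root (u := u + a)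
      (add_mem (AddSubgroup.mem_sup_right hm) (AddSubgroup.mem_sup_left ha))
    exact ⟨x, hx.1, (P'.L_le_U hx).trans
      (sup_le le_sup_right ((P.L_le_U hk).trans le_sup_left)), by rw [P'.card_L hx, hq], hxm⟩
  have hcov : ∀ y ∈ Y, y ≠ 0 → ∃ x : H, IsRefl V x ∧ Lf V x ≤ Y ∧
      Nat.card (Lf V x) = Nat.card (Lf V t₁) ∧ y ∈ Lf V x := by
    intro y hy hy0
    obtain ⟨u, hu, a, ha, rfl⟩ := AddSubgroup.mem_sup.1 hy
    by_cases hu' : u ∈ Lf V k₀
    swap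
    · exact hA u hu hu' a ha
    by_cases hu0 : u = 0
    · exact ⟨r, hr, le_sup_right, hq, by rw [hu0, zero_add]; exact ha⟩
    by_cases ha0 : a = 0
    · exact ⟨k₀, hk₀.1, (P.L_le_U hk₀).trans le_sup_left, P.card_L hk₀,
        by rw [ha0, add_zero]; exact hu'⟩
    have hex : ∃ k, InR V t₁ t₂ k ∧ k ≠ k₀ ∧ u + a ∉ Wf V k := by
      by_contra hcon
      push Not at hcon
      have hC : u + a ∉ Cf V t₁ t₂ := fun h =>
        hu0 (hk₀.1.L_inf_W_self P.kl h2 hu' (by simpa using sub_mem (hk₀.2 h) (hLW₀' ha)))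
      have h3 := P.R2.conj P.R1.2
      have n1 : t₁ * t₂ * t₁⁻¹ ≠ t₁ := fun e => P.ne (by
        rw [mul_inv_eq_iff_eq_mul] at e; exact (mul_left_cancel e).symm)
      have n2 : t₁ * t₂ * t₁⁻¹ ≠ t₂ := fun e => P.nc (by rwa [mul_inv_eq_iff_eq_mul] at e)
      have key : ∀ k k', InR V t₁ t₂ k → InR V t₁ t₂ k' → k ≠ k₀ → k' ≠ k₀ → k = k' :=
        fun k k' hk hk' a b => P.eq_of_fix hk hk' (hcon k hk a) (hcon k' hk' b) hC
      by_cases e1 : t₁ = k₀
      · exact n2 (key _ _ h3 P.R2 (e1 ▸ n1) (e1 ▸ P.ne.symm))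
      · by_cases e2 : t₂ = k₀
        · exact n1 (key _ _ h3 P.R1 (e2 ▸ n2) e1)
        · exact P.ne (key _ _ P.R1 P.R2 e1 e2)
    obtain ⟨k, hk, hkk, hW⟩ := hex
    have hb := sub_mem_L k (u + a)
    set b := k • (u + a) - (u + a) with hbdef
    have hb0 : b ≠ 0 := fun e => hW (mem_W.2 (sub_eq_zero.1 e))
    obtain ⟨x, hx, hle, hxq, hxm⟩ := hA (u + b) (add_mem hu (P.L_le_U hk hb))
      (fun h => hkk (hk.1.eq_of_mem_L P.kl hk₀.1 hb (by simpa using sub_mem h hu') hb0)) a ha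
    refine ⟨k * x * k⁻¹, hx.conj k, fun d hd => ?_, by rw [card_L_conj, hxq], ?_⟩
    · have h1 := hle (mem_L_conj.1 hd)
      have h3 := add_mem ((le_sup_left : Uf V t₁ t₂ ≤ Y) (P.L_le_U hk (sub_mem_L k (k⁻¹ • d)))) h1
      simpa using h3
    · have e : u + b + a = k • (u + a) := by rw [hbdef]; abel
      rw [mem_L_conj, hk.1.inv P.kl, ← e]; exact hxm
  refine no_rank3 P.kl h2 Y (Nat.card (Lf V t₁)) P.two_le_q ?_
    (fun y hy hy0 => by
      obtain ⟨x, hx, hle, -, hm⟩ := hcov y hy hy0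
      exact ⟨x, hx, hle, hm⟩) fun x hx hle => ?_
  · rw [card_sup_disj (inf_eq_bot_iff'.2 fun v hv hv' => ?_), P.card_U, hq]
    by_contra h
    exact hrR (P.R_of_L_le hr hv' h hv)
  · obtain ⟨d, d0, hd⟩ := exists_L_ne_zero (V := V) hx.1
    obtain ⟨x', hx', -, hq', hm⟩ := hcov d (hle hd) d0
    rw [hx.eq_of_mem_L P.kl hx' hd hm d0, hq']

variable (H V) in
/-- Irreducibility. -/
def Irr : Prop := ∀ S : AddSubgroup V, (∀ (g : H) (v : V), v ∈ S → g • v ∈ S) → S = ⊥ ∨ S = ⊤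

theorem Irr.ch (hI : Irr H V) : Two V ∨ NTwo V := by
  let S : AddSubgroup V :=
    { carrier := {v | v + v = 0}
      zero_mem' := by simp
      add_mem' := fun {a b} ha hb => by
        have ha' : a + a = 0 := ha
        have hb' : b + b = 0 := hb
        show a + b + (a + b) = 0
        rw [add_add_add_comm, ha', hb', add_zero]
      neg_mem' := fun {a} ha => by
        have ha' : a + a = 0 := ha
        show -a + -a = 0
        rw [← neg_add, ha', neg_zero] }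
  rcases hI S (fun g v hv => by
    have hv' : v + v = 0 := hv
    show g • v + g • v = 0
    rw [← smul_add, hv', smul_zero]) with h | h
  · exact Or.inr fun v hv => (AddSubgroup.mem_bot.1 (h ▸ (show v ∈ S from hv)))
  · exact Or.inl fun v => (show v ∈ S from h ▸ AddSubgroup.mem_top v)

theorem Irr.conj_span (hI : Irr H V) {t : H} (ht : t ≠ 1) {S : AddSubgroup V}
    (hS : ∀ g : H, Lf V (g * t * g⁻¹) ≤ S) : S = ⊤ := by
  let T : AddSubgroup V :=
    { carrier := {v | ∀ g : H, g • v ∈ S}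
      zero_mem' := fun g => by simp
      add_mem' := fun {a b} ha hb g => by rw [smul_add]; exact add_mem (ha g) (hb g)
      neg_mem' := fun {a} ha g => by rw [smul_neg]; exact neg_mem (ha g) }
  obtain ⟨d, d0, hd⟩ := exists_L_ne_zero (V := V) ht
  rcases hI T (fun g v hv g' => by rw [← mul_smul]; exact hv _) with h | h
  · have : d ∈ T := fun g => hS g (smul_mem_L g hd)
    rw [h] at this
    exact absurd this d0
  · rw [eq_top_iff]
    intro v _
    have : v ∈ T := h ▸ AddSubgroup.mem_top v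
    simpa using this 1

theorem Pair.U_top (P : Pair V t₁ t₂) (hI : Irr H V) : Uf V t₁ t₂ = ⊤ := by
  refine hI.conj_span P.r1.1 fun g => ?_
  have hr := P.r1.conj g
  rcases P.ch with h2 | h2
  · obtain ⟨u, h0, hu, hW⟩ := P.exists_U_W (card_L_conj g t₁)
    obtain ⟨k, hk, hm⟩ := P.root hu
    obtain ⟨g', hg'⟩ := P.conj_two h2 hk
    have e : k = (g' * g⁻¹) * (g * t₁ * g⁻¹) * (g' * g⁻¹)⁻¹ := by rw [hg']; group
    have h1 := hr.mc2 P.kl h2 (g := g' * g⁻¹)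
      (by rw [← e]; exact (hk.1.comm_of_fix P.kl hm h0 hW).symm)
    rw [← e] at h1
    exact P.L_le_U ⟨hr, hk.2.trans h1⟩
  · rcases P.refl_cases h2 hr with h | h
    · exact h
    exfalso
    have h1 : Lf V t₁ ≤ Wf V (g * t₁ * g⁻¹) := le_sup_left.trans h
    obtain ⟨d, d0, hd⟩ := exists_L_ne_zero (V := V) P.r1.1
    obtain ⟨x, hx, n1, n2⟩ := P.r1.mc P.kl h2 (g := g)
      (fun e => d0 (P.r1.L_inf_W_self P.kl h2 hd (e ▸ h1 hd))) (P.r1.comm_of_L_le P.kl h1)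
    rcases P.refl_cases h2 hx with h3 | h3
    · exact n2 (hx.comm_of_L_le P.kl (h3.trans h)).symm
    · exact n1 (P.r1.comm_of_L_le P.kl (le_sup_left.trans h3))

theorem comm_case (hK : KL H V) (hI : Irr H V)
    (hc : ∀ t t' : H, IsRefl V t → IsRefl V t' → t * t' = t' * t) (g : H) :
    (∀ v : V, g • v = v) ∨ (∀ v : V, g • v = -v) := by
  by_cases h1 : g = 1
  · exact Or.inl fun v => by rw [h1, one_smul]
  obtain ⟨t, ht, -⟩ := exists_refl (V := V) h1
  rcases hI.ch with h2 | h2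
  · exfalso
    have := hI.conj_span ht.1 (S := Wf V t) fun x => by
      by_cases e : x * t * x⁻¹ = t
      · rw [e]; exact ht.L_le_W_self hK h2
      · exact (ht.conj x).L_le_W hK ht e (hc _ _ ht (ht.conj x))
    exact ht.1 (eq_one_of_fix (V := V) fun v => mem_W.1 (this ▸ AddSubgroup.mem_top v))
  · have h3 : ∀ x : H, x * t * x⁻¹ = t := fun x => by
      by_contra e
      obtain ⟨y, hy, n1, -⟩ := ht.mc hK h2 (g := x) (Ne.symm e) (hc _ _ (ht.conj x) ht)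
      exact n1 (hc _ _ hy ht)
    have h4 := hI.conj_span ht.1 (S := Lf V t) fun x => by rw [h3]
    have h5 := h3 g
    rw [mul_inv_eq_iff_eq_mul] at h5
    rcases ht.unif hK h5 with h | h
    · exact Or.inl fun v => h v (h4 ▸ AddSubgroup.mem_top v)
    · exact Or.inr fun v => h v (h4 ▸ AddSubgroup.mem_top v)

theorem Pair.struct (P : Pair V t₁ t₂) (hI : Irr H V) :
    ∃ (R : Subgroup H) (t : H) (q : ℕ) (v₀ : V), 2 ≤ q ∧ Nat.card V = q * q ∧
      Nat.card R = q + 1 ∧ (∀ a ∈ R, ∀ b ∈ R, a * b = b * a) ∧ (∀ r ∈ R, t * r * t⁻¹ = r⁻¹) ∧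
      (∀ g, g ∈ R ∨ g * t ∈ R) ∧ t * t = 1 ∧ (∀ r ∈ R, ∀ v : V, v ≠ 0 → r • v = v → r = 1) ∧
      v₀ ≠ 0 ∧ t • v₀ = v₀ := by
  have hU := P.U_top hI
  have hC : ∀ v ∈ Cf V t₁ t₂, v = 0 := fun v hv => P.U_inf_C (hU ▸ AddSubgroup.mem_top v) hv
  have hKall : ∀ g : H, InK V t₁ t₂ g := fun g v hv => by rw [hC v hv]; exact zero_mem _
  have hmul : ∀ a b : H, ¬ InR V t₁ t₂ a → ¬ InR V t₁ t₂ b → ¬ InR V t₁ t₂ (a * b) := by
    intro a b ha hb
    have h1 := P.mul_R (hKall a) ha P.R1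
    have h3 := (P.mul_R (hKall b) hb P.R1).conj (hKall t₁)
    have e : a * b = (a * t₁) * (t₁ * (b * t₁) * t₁⁻¹) := by
      rw [mul_assoc t₁, mul_assoc b, mul_inv_cancel, mul_one, mul_assoc, ← mul_assoc t₁,
        P.r1.mul_self P.kl, one_mul]
    rw [e]; exact P.not_R_mul h1 h3
  let R : Subgroup H :=
    { carrier := {g | ¬ InR V t₁ t₂ g}
      one_mem' := fun h => h.1.1 rfl
      mul_mem' := fun {a b} ha hb => hmul a b ha hb
      inv_mem' := fun {a} ha h => ha (by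
        have := h.1.inv P.kl
        rw [inv_inv] at this
        rw [this]; exact h) }
  have hinv : ∀ r ∈ R, t₁ * r * t₁⁻¹ = r⁻¹ := fun r hr => P.conj_inv (hKall r) hr P.R1
  have hV : Nat.card V = Nat.card (Lf V t₁) * Nat.card (Lf V t₁) := by
    rw [← P.card_U, hU, card_top']
  obtain ⟨v₀, hv₀, hv₀'⟩ := P.exists_not_C P.R1
  refine ⟨R, t₁, Nat.card (Lf V t₁), v₀, P.two_le_q, hV, ?_, fun a ha b hb => ?_, hinv,
    fun g => ?_, P.r1.mul_self P.kl, fun r hr v h0 hv => ?_, fun h => hv₀' (h ▸ zero_mem _),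
    mem_W.1 hv₀⟩
  · have c := count_roots P.kl ⊤ (Nat.card (Lf V t₁)) (fun v _ h0 => by
      obtain ⟨k, hk, hm⟩ := P.root (u := v) (hU ▸ AddSubgroup.mem_top v)
      exact ⟨k, hk.1, le_top, hm⟩) fun x hx _ => P.card_L ⟨hx, hKall x⟩
    have e : Nat.card R = {x : H | IsRefl V x ∧ Lf V x ≤ ⊤}.ncard := by
      rw [← Nat.card_coe_set_eq]
      refine Nat.card_congr
        { toFun := fun r => ⟨r.1 * t₁, (P.mul_R (hKall _) r.2 P.R1).1, le_top⟩
          invFun := fun k => ⟨k.1 * t₁, P.not_R_mul ⟨k.2.1, hKall _⟩ P.R1⟩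
          left_inv := fun r => Subtype.ext (by simp [mul_assoc, P.r1.mul_self P.kl])
          right_inv := fun r => Subtype.ext (by simp [mul_assoc, P.r1.mul_self P.kl]) }
    rw [← e, card_top', hV] at c
    have hq := P.two_le_q
    obtain ⟨p, hp⟩ : ∃ p, Nat.card (Lf V t₁) = p + 1 := ⟨Nat.card (Lf V t₁) - 1, by omega⟩
    rw [hp] at c hq ⊢
    rw [Nat.add_sub_cancel] at c
    exact Nat.eq_of_mul_eq_mul_right (m := p) (by omega) (by nlinarith)
  · have h1 := hinv _ (R.mul_mem ha hb)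
    have h3 : t₁ * (a * b) * t₁⁻¹ = (t₁ * a * t₁⁻¹) * (t₁ * b * t₁⁻¹) := by group
    rw [h3, hinv a ha, hinv b hb, ← mul_inv_rev] at h1
    exact (inv_injective h1).symm
  · by_cases h : InR V t₁ t₂ g
    · exact Or.inr (P.not_R_mul h P.R1)
    · exact Or.inl h
  · by_contra h1
    exact hr (P.refl_of_fix (hKall r) h1 (mem_W.2 hv) fun h => h0 (hC v h))

end Cfsg.Agent.H98.Bin
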