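import Cfsg.Agent.H98.Bin2

/-!
Binary affine groups, part 3: the field structure, and the classification of the linear groups.
-/

set_option autoImplicit false
set_option linter.unusedSectionVars false
set_option linter.unusedVariables false
set_option linter.unusedSimpArgs false
set_option linter.style.haveILetI false

namespace Cfsg.Agent.H98.Bin

theorem quad_field {E : Type} [Field E] [Finite E] (φ : E ≃+* E) (h1 : φ ≠ 1) (h2 : φ * φ = 1)
    (q : ℕ) (hq : 2 ≤ q) (hE : Nat.card E = q * q) :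
    ∃ (F : Type) (_ : Field F) (_ : Fintype F) (_ : Algebra F E) (ψ : E ≃ₐ[F] E),
      Module.finrank F E = 2 ∧ (∀ x, ψ x = φ x) ∧ (∀ χ : E ≃ₐ[F] E, χ = 1 ∨ χ = ψ) ∧
      ∀ a : E, Algebra.norm F a = 1 ↔ a ^ (q + 1) = 1 := by
  classical
  haveI : Finite (E ≃+* E) := Finite.of_injective (fun f : E ≃+* E => (f : E → E))
    DFunLike.coe_injective
  let G := Subgroup.zpowers (show RingAut E from φ)
  haveI : Fintype G := Fintype.ofFinite G
  have hG : Fintype.card G = 2 := by
    rw [← Nat.card_eq_fintype_card, Nat.card_zpowers]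
    exact orderOf_eq_prime (by rw [pow_two]; exact h2) h1
  let F := FixedPoints.subfield G E
  have hr : Module.finrank F E = 2 := by rw [← hG]; exact FixedPoints.finrank_eq_card G E
  let ψ : E ≃ₐ[F] E := AlgEquiv.ofRingEquiv (f := φ) fun x =>
    x.2 ⟨φ, Subgroup.mem_zpowers _⟩
  have hψ : ψ ≠ 1 := fun h => h1 (RingEquiv.ext fun x => DFunLike.congr_fun h x)
  haveI : Fintype F := Fintype.ofFinite F
  have hF : Nat.card F = q := by
    have := Module.natCard_eq_pow_finrank (K := F) (V := E)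
    rw [hr, hE, pow_two] at this
    exact (Nat.mul_self_inj.1 this).symm
  refine ⟨F, inferInstance, inferInstance, inferInstance, ψ, hr, fun x => rfl, fun χ => ?_,
    fun a => ?_⟩
  · by_contra hc
    push Not at hc
    have h3 := AlgEquiv.card_le (F := F) (K := E)
    rw [hr] at h3
    have h4 : ({1, ψ, χ} : Finset (E ≃ₐ[F] E)).card = 3 :=
      Finset.card_eq_three.2 ⟨1, ψ, χ, hψ.symm, hc.1.symm, hc.2.symm, rfl⟩
    have := Finset.card_le_univ ({1, ψ, χ} : Finset (E ≃ₐ[F] E))
    omega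
  · have h3 := FiniteField.algebraMap_norm_eq_pow (K := F) (x := a)
    have h4 : (q * q - 1) / (q - 1) = q + 1 := by
      obtain ⟨p, rfl⟩ : ∃ p, q = p + 1 := ⟨q - 1, by omega⟩
      have : (p + 1) * (p + 1) - 1 = (p + 1 + 1) * p := by
        rw [Nat.sub_eq_iff_eq_add (by nlinarith)]; ring
      rw [this, Nat.add_sub_cancel, Nat.mul_div_cancel _ (by omega)]
    rw [hE, hF, h4] at h3
    rw [← h3, ← (algebraMap F E).injective.eq_iff, map_one]

theorem roots_aux {E R : Type*} [Field E] [Group R] [Finite R] (ι : R →* E)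
    (hι : Function.Injective ι) (n : ℕ) (hn : 0 < n) (h : ∀ r : R, r ^ n = 1) :
    Nat.card R ≤ n ∧ (Nat.card R = n → ∀ a : E, a ^ n = 1 → ∃ r, ι r = a) := by
  classical
  haveI := Fintype.ofFinite R
  have h1 : Finset.univ.image ι ⊆ Polynomial.nthRootsFinset n (1 : E) := fun a ha => by
    obtain ⟨r, -, rfl⟩ := Finset.mem_image.1 ha
    rw [Polynomial.mem_nthRootsFinset hn, ← map_pow, h, map_one]
  have h2 : (Polynomial.nthRootsFinset n (1 : E)).card ≤ n := by
    rw [Polynomial.nthRootsFinset_def]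
    exact (Multiset.toFinset_card_le _).trans (Polynomial.card_nthRoots n 1)
  have h3 : (Finset.univ.image ι).card = Nat.card R := by
    rw [Finset.card_image_of_injective _ hι, Nat.card_eq_fintype_card, Finset.card_univ]
  refine ⟨h3 ▸ (Finset.card_le_card h1).trans h2, fun e a ha => ?_⟩
  have h4 := Finset.eq_of_subset_of_card_le h1 (by rw [h3, e]; exact h2)
  have h5 := (Polynomial.mem_nthRootsFinset hn (1 : E)).2 ha
  rw [← h4] at h5
  obtain ⟨r, -, hr⟩ := Finset.mem_image.1 h5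
  exact ⟨r, hr⟩

variable {H : Type*} {V : Type} [Group H] [AddCommGroup V] [DistribMulAction H V]
  [FaithfulSMul H V] [Finite H] [Finite V]

theorem field_struct (hI : Irr H V) (R : Subgroup H) (t : H) (q : ℕ) (v₀ : V) (hq : 2 ≤ q)
    (hV : Nat.card V = q * q) (hR : Nat.card R = q + 1) (hc : ∀ a ∈ R, ∀ b ∈ R, a * b = b * a)
    (hi : ∀ r ∈ R, t * r * t⁻¹ = r⁻¹) (hg : ∀ g, g ∈ R ∨ g * t ∈ R) (ht : t * t = 1)
    (hs : ∀ r ∈ R, ∀ v : V, v ≠ 0 → r • v = v → r = 1) (h0 : v₀ ≠ 0) (hv : t • v₀ = v₀) :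
    ∃ (F E : Type) (_ : Field F) (_ : Fintype F) (_ : Field E) (_ : Fintype E) (_ : Algebra F E)
      (e : V ≃+ E), Module.finrank F E = 2 ∧
      (∀ g : H, ∃ (a : E) (φ : E ≃ₐ[F] E), Algebra.norm F a = 1 ∧ ∀ v, e (g • v) = a * φ (e v)) ∧
      (∀ (a : E) (φ : E ≃ₐ[F] E), Algebra.norm F a = 1 →
        ∃ g : H, ∀ v, e (g • v) = a * φ (e v)) := by
  classical
  have htt : ∀ v : V, t • t • v = v := fun v => by rw [← mul_smul, ht, one_smul]
  have hti : t⁻¹ = t := inv_eq_of_mul_eq_one_right ht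
  -- `R` is irreducible
  have hirr : ∀ S : AddSubgroup V, (∀ r ∈ R, ∀ v ∈ S, r • v ∈ S) → ∀ w ∈ S, w ≠ 0 → S = ⊤ := by
    intro S hS w hw hw0
    have c1 : q + 1 ≤ Nat.card S := by
      rw [← hR]
      refine Nat.card_le_card_of_injective (fun r : R => (⟨r.1 • w, hS r.1 r.2 w hw⟩ : S))
        fun a b e => ?_
      have e' : a.1 • w = b.1 • w := congrArg Subtype.val e
      have := hs (b.1⁻¹ * a.1) (R.mul_mem (R.inv_mem b.2) a.2) w hw0
        (by rw [mul_smul, e', inv_smul_smul])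
      exact Subtype.ext (inv_mul_eq_one.1 this).symm
    let S' : AddSubgroup V := S.comap (DistribMulAction.toAddMonoidEnd H V t)
    have hS' : ∀ v, v ∈ S' ↔ t • v ∈ S := fun v => Iff.rfl
    have c2 : Nat.card S' = Nat.card S := Nat.card_congr
      { toFun := fun v => ⟨t • v.1, v.2⟩
        invFun := fun v => ⟨t • v.1, by rw [hS', htt]; exact v.2⟩
        left_inv := fun v => Subtype.ext (htt _)
        right_inv := fun v => Subtype.ext (htt _) }
    obtain ⟨u, u0, hu, hu'⟩ := exists_mem_inf (A := S) (B := S') (Y := ⊤) le_top le_top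
      (by rw [card_top', hV, c2]; nlinarith)
    have hRT : ∀ r ∈ R, ∀ v ∈ S ⊓ S', r • v ∈ S ⊓ S' := fun r hr v hv =>
      ⟨hS r hr v hv.1, (hS' _).2 (by
        have : t • r • v = r⁻¹ • t • v := by
          rw [← hi r hr, mul_smul, mul_smul, inv_smul_smul]
        rw [this]; exact hS _ (R.inv_mem hr) _ hv.2)⟩
    rcases hI (S ⊓ S') (fun g v hv => by
      rcases hg g with h | h
      · exact hRT g h v hv
      · have : g • v = (g * t) • t • v := by rw [mul_smul, htt]
        rw [this]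
        exact hRT _ h _ ⟨hv.2, (hS' _).2 (by rw [htt]; exact hv.1)⟩) with h | h
    · exact absurd (AddSubgroup.mem_bot.1 (h ▸ (⟨hu, hu'⟩ : u ∈ S ⊓ S'))) u0
    · exact eq_top_iff.2 (h.ge.trans inf_le_left)
  let ρ := DistribMulAction.toAddMonoidEnd H V
  have hρ : ∀ g v, ρ g v = g • v := fun g v => rfl
  let E := Subring.centralizer (ρ '' (R : Set H))
  have hE : ∀ a : AddMonoid.End V, a ∈ E ↔ ∀ r ∈ R, ∀ v, r • a v = a (r • v) := fun a => by
    rw [Subring.mem_centralizer_iff]
    constructor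
    · intro h r hr v
      exact DFunLike.congr_fun (h _ ⟨r, hr, rfl⟩) v
    · rintro h _ ⟨r, hr, rfl⟩
      exact AddMonoidHom.ext fun v => h r hr v
  have hinj : ∀ a : E, ∀ w : V, w ≠ 0 → a.1 w = 0 → a = 0 := fun a w hw e => by
    have := hirr (AddMonoidHom.ker a.1) (fun r hr v hv => by
      have := (hE a.1).1 a.2 r hr v
      exact this.symm.trans (by rw [show a.1 v = 0 from hv, smul_zero])) w e hw
    refine Subtype.ext (AddMonoidHom.ext fun v => ?_)
    exact (this ▸ AddSubgroup.mem_top v : v ∈ AddMonoidHom.ker a.1)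
  haveI : Finite (AddMonoid.End V) :=
    Finite.of_injective (fun f : AddMonoid.End V => (f : V → V)) DFunLike.coe_injective
  haveI : Nontrivial E := ⟨⟨1, 0, fun h => h0 (DFunLike.congr_fun (congrArg Subtype.val h) v₀)⟩⟩
  haveI : NoZeroDivisors E := ⟨fun {a b} h => by
    by_cases hb : b.1 v₀ = 0
    · exact Or.inr (hinj b v₀ h0 hb)
    · exact Or.inl (hinj a _ hb (DFunLike.congr_fun (congrArg Subtype.val h) v₀))⟩
  haveI : IsDomain E := NoZeroDivisors.to_isDomain E
  letI : Field E := (Finite.isDomain_to_isField E).toField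
  let ev : E →+ V :=
    { toFun := fun a => a.1 v₀
      map_zero' := rfl
      map_add' := fun a b => rfl }
  let ι : R → E := fun r => ⟨ρ r.1, (hE _).2 fun s hs v => by
    rw [hρ, hρ, ← mul_smul, ← mul_smul, hc s hs r.1 r.2]⟩
  have hev : Function.Bijective ev := by
    constructor
    · rw [injective_iff_map_eq_zero]
      exact fun a ha => hinj a v₀ h0 ha
    · rw [← AddMonoidHom.range_eq_top]
      refine hirr _ ?_ v₀ ⟨1, rfl⟩ h0
      rintro r hr _ ⟨a, rfl⟩
      exact ⟨ι ⟨r, hr⟩ * a, rfl⟩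
  let ee : E ≃+ V := AddEquiv.ofBijective ev hev
  have hee : ∀ a : E, ee a = a.1 v₀ := fun a => rfl
  have hcE : Nat.card E = q * q := by rw [← hV]; exact Nat.card_congr ee.toEquiv
  have hφm : ∀ a : E, ρ t * a.1 * ρ t ∈ E := fun a => (hE _).2 fun r hr v => by
    have e1 : ∀ w : V, r • t • w = t • r⁻¹ • w := fun w => by
      rw [← hi r hr, mul_smul, mul_smul, htt, hti]
    have e2 : ∀ w : V, r⁻¹ • t • w = t • r • w := fun w => by
      rw [← hi r hr, mul_smul, mul_smul, inv_smul_smul]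
    show r • t • a.1 (t • v) = t • a.1 (t • r • v)
    rw [e1, (hE a.1).1 a.2 _ (R.inv_mem hr), e2]
  have hφφ : ∀ a : AddMonoid.End V, ρ t * (ρ t * a * ρ t) * ρ t = a := fun a =>
    AddMonoidHom.ext fun v => by
      show t • t • a (t • t • v) = a v
      rw [htt, htt]
  let φ : E ≃+* E :=
    { toFun := fun a => ⟨ρ t * a.1 * ρ t, hφm a⟩
      invFun := fun a => ⟨ρ t * a.1 * ρ t, hφm a⟩
      left_inv := fun a => Subtype.ext (hφφ _)
      right_inv := fun a => Subtype.ext (hφφ _)
      map_mul' := fun a b => Subtype.ext (AddMonoidHom.ext fun v => by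
        show t • a.1 (b.1 (t • v)) = t • a.1 (t • t • b.1 (t • v))
        rw [htt])
      map_add' := fun a b => Subtype.ext (AddMonoidHom.ext fun v => by
        show t • (a.1 (t • v) + b.1 (t • v)) = t • a.1 (t • v) + t • b.1 (t • v)
        rw [smul_add]) }
  have hφ : ∀ (a : E) v, (φ a).1 v = t • a.1 (t • v) := fun a v => rfl
  have hι : Function.Injective ι := fun a b e => Subtype.ext
    (eq_of_smul_eq_smul (α := V) fun v => DFunLike.congr_fun (congrArg Subtype.val e) v)
  have hιm : ∀ a b : R, ι (a * b) = ι a * ι b := fun a b => Subtype.ext (map_mul ρ a.1 b.1)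
  have hι1 : ι 1 = 1 := Subtype.ext (map_one ρ)
  let ι' : R →* E := { toFun := ι, map_one' := hι1, map_mul' := hιm }
  have hφ1 : φ ≠ 1 := fun h => by
    have := (roots_aux ι' hι 2 (by norm_num) fun r => Subtype.ext (by
      have e : ∀ v : V, t • r.1 • t • v = r.1 • v := fun v =>
        DFunLike.congr_fun (congrArg Subtype.val (DFunLike.congr_fun h (ι r))) v
      have e2 : r.1⁻¹ = r.1 := eq_of_smul_eq_smul (α := V) fun v => by
        rw [← hi r.1 r.2, mul_smul, mul_smul, hti, e]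
      show r.1 ^ 2 = 1
      rw [pow_two]
      nth_rw 1 [← e2]
      exact inv_mul_cancel _)).1
    omega
  obtain ⟨F, iF, fF, aF, ψ, hr, hψ, hχ, hN⟩ := quad_field φ hφ1
    (RingEquiv.ext fun a => Subtype.ext (hφφ _)) q hq hcE
  have hpow : ∀ r : R, r ^ (q + 1) = 1 := fun r => by rw [← hR]; exact pow_card_eq_one'
  have hsurj := (roots_aux ι' hι (q + 1) (by omega) hpow).2 hR
  have k1 : ∀ (r : R) (v : V), ee.symm (r.1 • v) = ι r * ee.symm v := fun r v => by
    obtain ⟨x, rfl⟩ := ee.surjective v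
    rw [AddEquiv.symm_apply_apply, AddEquiv.symm_apply_eq]
    rfl
  have k2 : ∀ v : V, ee.symm (t • v) = ψ (ee.symm v) := fun v => by
    obtain ⟨x, rfl⟩ := ee.surjective v
    rw [AddEquiv.symm_apply_apply, AddEquiv.symm_apply_eq, hψ, hee, hee, hφ, hv]
  have k3 : ∀ r : R, Algebra.norm F (ι r) = 1 := fun r => (hN _).2 (by
    show ι' r ^ (q + 1) = 1
    rw [← map_pow, hpow, map_one])
  refine ⟨F, E, iF, fF, inferInstance, Fintype.ofFinite E, aF, ee.symm, hr, fun g => ?_,
    fun a χ ha => ?_⟩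
  · rcases hg g with h | h
    · exact ⟨ι ⟨g, h⟩, 1, k3 _, fun v => k1 ⟨g, h⟩ v⟩
    · refine ⟨ι ⟨g * t, h⟩, ψ, k3 _, fun v => ?_⟩
      rw [← k2, ← k1]
      show _ = ee.symm ((g * t) • t • v)
      rw [mul_smul, htt]
  · obtain ⟨r, rfl⟩ := hsurj a ((hN a).1 ha)
    rcases hχ χ with rfl | rfl
    · exact ⟨r.1, fun v => k1 r v⟩
    · exact ⟨r.1 * t, fun v => by rw [mul_smul, k1, k2]; rfl⟩

theorem bin_main [Nontrivial V] (hK : KL H V) (hI : Irr H V) :
    ((Nat.card V).Prime ∧ Nat.card H ≤ 2) ∨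
    ∃ (F E : Type) (_ : Field F) (_ : Fintype F) (_ : Field E) (_ : Fintype E) (_ : Algebra F E)
      (e : V ≃+ E), Module.finrank F E = 2 ∧
      (∀ g : H, ∃ (a : E) (φ : E ≃ₐ[F] E), Algebra.norm F a = 1 ∧ ∀ v, e (g • v) = a * φ (e v)) ∧
      (∀ (a : E) (φ : E ≃ₐ[F] E), Algebra.norm F a = 1 →
        ∃ g : H, ∀ v, e (g • v) = a * φ (e v)) := by
  by_cases hc : ∀ t t' : H, IsRefl V t → IsRefl V t' → t * t' = t' * t
  · left
    have h := comm_case hK hI hc
    constructor
    · haveI : IsSimpleAddGroup V := ⟨fun S _ => hI S fun g v hv => by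
        rcases h g with e | e
        · rw [e]; exact hv
        · rw [e]; exact neg_mem hv⟩
      exact IsSimpleAddGroup.prime_card
    · classical
      have := Nat.card_le_card_of_injective (fun g : H => decide (∀ v : V, g • v = v))
        fun a b e => by
          have e' : (∀ v : V, a • v = v) ↔ ∀ v : V, b • v = v := by simpa using e
          refine eq_of_smul_eq_smul (α := V) fun v => ?_
          by_cases ha : ∀ v : V, a • v = v
          · rw [ha, e'.1 ha]
          · rw [(h a).resolve_left ha, (h b).resolve_left fun hb => ha (e'.2 hb)]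
      simpa using this
  · right
    push Not at hc
    obtain ⟨t, t', ht, ht', hnc⟩ := hc
    obtain ⟨R, s, q, v₀, h1, h2, h3, h4, h5, h6, h7, h8, h9, h10⟩ :=
      Pair.struct ⟨hK, hI.ch, ht, ht', hnc⟩ hI
    exact field_struct hI R s q v₀ h1 h2 h3 h4 h5 h6 h7 h8 h9 h10

end Cfsg.Agent.H98.Bin
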