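import Cfsg.Agent.H98.Bin3

/-!
Binary affine groups, part 4: affine coordinates for a primitive group with an abelian normal
subgroup.
-/

set_option autoImplicit false
set_option linter.unusedSectionVars false
set_option linter.unusedVariables false
set_option linter.unusedSimpArgs false
set_option linter.style.haveILetI false

namespace Cfsg.Agent.H98.Bin

open scoped Pointwise

theorem affine_coords {G Ω : Type*} [Group G] [Finite G] [MulAction G Ω] [FaithfulSMul G Ω]
    [Finite Ω] (hprim : MulAction.IsPreprimitive G Ω) (N : Subgroup G) [hN : N.Normal]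
    (hne : N ≠ ⊥) (hcomm : IsMulCommutative N) (ω : Ω) :
    ∃ (V : Type) (_ : AddCommGroup V) (_ : DistribMulAction (MulAction.stabilizer G ω) V)
      (ε : Ω ≃ V) (tr : V → G), Nontrivial V ∧ ε ω = 0 ∧ (∀ v x, ε (tr v • x) = v + ε x) ∧
      ∀ (h : MulAction.stabilizer G ω) x, ε (h.1 • x) = h • ε x := by
  have hc : ∀ a b : N, a * b = b * a := fun a b => mul_comm' a b
  letI : CommGroup N := { (inferInstance : Group N) with mul_comm := hc }
  have htr : MulAction.IsPretransitive N Ω := by
    refine MulAction.IsQuasiPreprimitive.isPretransitive_of_normal fun h => hne ?_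
    rw [eq_bot_iff]
    intro n hn
    refine eq_of_smul_eq_smul (α := Ω) fun x => ?_
    have : x ∈ MulAction.fixedPoints N Ω := h ▸ Set.mem_univ x
    rw [one_smul]
    exact this ⟨n, hn⟩
  have hbij : Function.Bijective fun n : N => n.1 • ω := by
    constructor
    · intro a b e
      refine Subtype.ext (eq_of_smul_eq_smul (α := Ω) fun x => ?_)
      obtain ⟨m, rfl⟩ := htr.exists_smul_eq ω x
      have e' : a.1 • ω = b.1 • ω := e
      show a.1 • m.1 • ω = b.1 • m.1 • ω
      have k : ∀ c : N, c.1 • m.1 • ω = m.1 • c.1 • ω := fun c => by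
        rw [← mul_smul, ← mul_smul]
        exact congrArg (fun z : N => z.1 • ω) (hc c m)
      rw [k, k, e']
    · exact fun x => htr.exists_smul_eq ω x
  let β : N ≃ Ω := Equiv.ofBijective _ hbij
  have hβ : ∀ n : N, β n = n.1 • ω := fun n => rfl
  let V := Shrink.{0} (Additive N)
  let sh : Additive N ≃+ V := Shrink.addEquiv.symm
  let ε : Ω ≃ V := β.symm.trans (Additive.ofMul.trans sh.toEquiv)
  have hε : ∀ n : N, ε (n.1 • ω) = sh (Additive.ofMul n) := fun n => by
    show sh (Additive.ofMul (β.symm (β n))) = _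
    rw [Equiv.symm_apply_apply]
  have hsur : ∀ v : V, ∃ n : N, v = sh (Additive.ofMul n) := fun v =>
    ⟨(sh.symm v).toMul, by simp⟩
  have hsymm : ∀ n : N, ε.symm (sh (Additive.ofMul n)) = n.1 • ω := fun n => by
    rw [← hε, Equiv.symm_apply_apply]
  have h0 : ε ω = 0 := by
    have := hε 1
    rwa [OneMemClass.coe_one, one_smul, ofMul_one, map_zero] at this
  have hconj : ∀ (h : MulAction.stabilizer G ω) (n : N),
      ε (h.1 • n.1 • ω) = sh (Additive.ofMul (MulAut.conjNormal h.1 n)) := fun h n => by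
    rw [← hε, MulAut.conjNormal_apply, mul_smul, mul_smul]
    congr 3
    exact (inv_smul_eq_iff.2 h.2.symm).symm
  letI : MulAction (MulAction.stabilizer G ω) V :=
    { smul := fun h v => ε (h.1 • ε.symm v)
      one_smul := fun v => by
        show ε ((1 : G) • ε.symm v) = v
        rw [one_smul, Equiv.apply_symm_apply]
      mul_smul := fun a b v => by
        show ε ((a.1 * b.1) • ε.symm v) = ε (a.1 • ε.symm (ε (b.1 • ε.symm v)))
        rw [Equiv.symm_apply_apply, mul_smul] }
  have hsm : ∀ (h : MulAction.stabilizer G ω) (v : V), h • v = ε (h.1 • ε.symm v) :=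
    fun h v => rfl
  letI : DistribMulAction (MulAction.stabilizer G ω) V :=
    { smul_zero := fun h => by
        rw [hsm, ← h0, Equiv.symm_apply_apply]
        exact congrArg ε h.2
      smul_add := fun h a b => by
        obtain ⟨n, rfl⟩ := hsur a
        obtain ⟨m, rfl⟩ := hsur b
        rw [← map_add, ← ofMul_mul, hsm, hsm, hsm, hsymm, hsymm, hsymm, hconj, hconj, hconj,
          map_mul, ofMul_mul, map_add] }
  haveI : Nontrivial N := (Subgroup.nontrivial_iff_ne_bot N).2 hne
  refine ⟨V, inferInstance, inferInstance, ε, fun v => ((sh.symm v).toMul : N).1,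
    sh.toEquiv.symm.nontrivial, h0, fun v x => ?_, fun h x => ?_⟩
  · obtain ⟨n, rfl⟩ := hsur v
    obtain ⟨m, rfl⟩ := hbij.2 x
    show ε ((Additive.toMul (sh.symm (sh (Additive.ofMul n)))).1 • m.1 • ω) = _ + ε (m.1 • ω)
    rw [AddEquiv.symm_apply_apply, toMul_ofMul, ← mul_smul, hε, ← map_add, ← ofMul_mul]
    exact hε (n * m)
  · rw [hsm, Equiv.symm_apply_apply]

theorem bin_affine {G Ω : Type*} [Group G] [Finite G] [MulAction G Ω] [FaithfulSMul G Ω]
    [Finite Ω] (hprim : MulAction.IsPreprimitive G Ω) (N : Subgroup G) [hN : N.Normal]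
    (hne : N ≠ ⊥) (hcomm : IsMulCommutative N)
    (hbin : ∀ (n : ℕ) (I J : Fin n → Ω), 2 ≤ n →
      (∀ i j : Fin n, i ≠ j → ∃ g : G, g • I i = J i ∧ g • I j = J j) →
        ∃ g : G, ∀ i, g • I i = J i) (ω : Ω) :
    ((Nat.card Ω).Prime ∧ Nat.card ↥(MulAction.stabilizer G ω) ≤ 2) ∨
    (∃ (F E : Type) (_ : Field F) (_ : Fintype F) (_ : Field E) (_ : Fintype E) (_ : Algebra F E)
      (e : Ω ≃ E), Module.finrank F E = 2 ∧
        ∀ σ : Equiv.Perm Ω, σ ∈ (MulAction.toPermHom G Ω).range ↔
          ∃ (a b : E) (φ : E ≃ₐ[F] E), Algebra.norm F a = 1 ∧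
            ∀ ω : Ω, e (σ ω) = a * φ (e ω) + b) := by
  classical
  obtain ⟨V, i1, i2, ε, tr, hnt, h0, htr, hsm⟩ := affine_coords hprim N hne hcomm ω
  haveI : Finite V := Finite.of_equiv _ ε
  haveI : FaithfulSMul (MulAction.stabilizer G ω) V := ⟨fun {a b} h =>
    Subtype.ext (eq_of_smul_eq_smul (α := Ω) fun x => ε.injective (by rw [hsm, hsm, h]))⟩
  have hdec : ∀ g : G, ∃ (h : MulAction.stabilizer G ω) (b : V), ∀ x, ε (g • x) = b + h • ε x := by
    intro g
    refine ⟨⟨tr (-ε (g • ω)) * g, ?_⟩, ε (g • ω), fun x => ?_⟩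
    · rw [MulAction.mem_stabilizer_iff, mul_smul]
      exact ε.injective (by rw [htr, h0, neg_add_cancel])
    · rw [← hsm, mul_smul, htr, add_neg_cancel_left]
  have hI : Irr (MulAction.stabilizer G ω) V := by
    intro S hS
    have hB : MulAction.IsBlock G (ε ⁻¹' (S : Set V)) := by
      rw [MulAction.isBlock_iff_smul_eq_of_mem]
      intro g a ha hga
      obtain ⟨h, b, hg⟩ := hdec g
      have hb : b ∈ S := by
        have h1 : ε (g • a) ∈ S := hga
        rw [hg] at h1
        simpa using sub_mem h1 (hS h _ ha)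
      ext x
      rw [Set.mem_smul_set_iff_inv_smul_mem]
      have e := hg (g⁻¹ • x)
      rw [smul_inv_smul] at e
      constructor
      · intro hx
        show ε x ∈ S
        rw [e]; exact add_mem hb (hS h _ hx)
      · intro hx
        have h1 : h • ε (g⁻¹ • x) ∈ S := by
          have := sub_mem (show ε x ∈ S from hx) hb
          rwa [e, add_sub_cancel_left] at this
        have h3 := hS h⁻¹ _ h1
        rw [inv_smul_smul] at h3
        exact h3
    rcases hprim.isTrivialBlock_of_isBlock hB with h | h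
    · left
      rw [eq_bot_iff]
      intro v hv
      have := h (show ε.symm v ∈ ε ⁻¹' (S : Set V) by simpa using hv)
        (show ε.symm 0 ∈ ε ⁻¹' (S : Set V) by simp)
      exact ε.symm.injective this
    · right
      rw [eq_top_iff]
      intro v _
      have : ε.symm v ∈ ε ⁻¹' (S : Set V) := h ▸ Set.mem_univ _
      simpa using this
  have hK : KL (MulAction.stabilizer G ω) V := by
    intro d
    let Z := {u : V // ∃ g : MulAction.stabilizer G ω, g • u = u + d}
    haveI := Fintype.ofFinite Z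
    let I : Fin 2 ⊕ Z → Ω := Sum.elim (fun _ => ω) fun u => ε.symm u.1
    let J : Fin 2 ⊕ Z → Ω := Sum.elim (fun _ => ω) fun u => ε.symm (u.1 + d)
    let η := (Fintype.equivFin (Fin 2 ⊕ Z)).symm
    have k1 : ∀ u : Z, ∃ g : G, g • ω = ω ∧ g • ε.symm u.1 = ε.symm (u.1 + d) := fun u => by
      obtain ⟨g, hg⟩ := u.2
      exact ⟨g.1, g.2, ε.injective (by
        rw [hsm, Equiv.apply_symm_apply, Equiv.apply_symm_apply, hg])⟩
    have k2 : ∀ u : V, tr d • ε.symm u = ε.symm (u + d) := fun u => ε.injective (by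
      rw [htr, Equiv.apply_symm_apply, Equiv.apply_symm_apply, add_comm])
    have hpair : ∀ i j, ∃ g : G, g • I i = J i ∧ g • I j = J j := by
      rintro (i | i) (j | j)
      · exact ⟨1, one_smul _ _, one_smul _ _⟩
      · exact k1 j
      · exact (k1 i).imp fun g hg => hg.symm
      · exact ⟨tr d, k2 _, k2 _⟩
    obtain ⟨g, hg⟩ := hbin _ (I ∘ η) (J ∘ η) (by simp) fun i j _ => hpair (η i) (η j)
    have hg' : ∀ i, g • I i = J i := fun i => by simpa using hg (η.symm i)
    refine ⟨⟨g, hg' (Sum.inl 0)⟩, fun u g' hu => ?_⟩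
    have := congrArg ε (hg' (Sum.inr ⟨u, g', hu⟩))
    have e := hsm ⟨g, hg' (Sum.inl 0)⟩ (ε.symm u)
    rw [Equiv.apply_symm_apply] at e
    rw [← e]
    exact this.trans (Equiv.apply_symm_apply _ _)
  rcases bin_main hK hI with h | ⟨F, E, j1, j2, j3, j4, j5, e, hr, k1, k2⟩
  · exact Or.inl ⟨by rw [Nat.card_congr ε]; exact h.1, h.2⟩
  · refine Or.inr ⟨F, E, j1, j2, j3, j4, j5, ε.trans e.toEquiv, hr, fun σ => ⟨?_, ?_⟩⟩
    · rintro ⟨g, rfl⟩
      obtain ⟨h, b, hg⟩ := hdec g
      obtain ⟨a, φ, ha, hv⟩ := k1 h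
      refine ⟨a, e b, φ, ha, fun x => ?_⟩
      show e (ε (g • x)) = a * φ (e (ε x)) + e b
      rw [hg, map_add, hv, add_comm]
    · rintro ⟨a, b, φ, ha, hσ⟩
      obtain ⟨h, hv⟩ := k2 a φ ha
      refine ⟨tr (e.symm b) * h.1, Equiv.ext fun x => (ε.trans e.toEquiv).injective ?_⟩
      rw [hσ]
      show e (ε ((tr (e.symm b) * h.1) • x)) = a * φ (e (ε x)) + b
      rw [mul_smul, htr, hsm, map_add, AddEquiv.apply_symm_apply, hv, add_comm]

end Cfsg.Agent.H98.Bin
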